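import Mathlib

/-!
# Field automorphisms fixing an element of primitive prime order (helper566)

`le_of_semi` : `F` a field with `r ^ f` elements, `τ` an automorphism of `F` of prime order `p`, `y ∈ GL_n(F)` of prime
order `l`, `l` a primitive prime divisor of `r ^ (d f) - 1`, `y = g τ(y) g⁻¹` for some `g ∈ GL_n(F)`: then `p d ≤ n`.
(The characteristic polynomial of `y` has coefficients in the fixed field of `τ`.)
-/

set_option autoImplicit false

namespace Cfsg.Agent.H566.SemiFix

open Polynomial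

/-- The fixed field of an automorphism of prime order of a finite field. -/
theorem exists_exp {F : Type*} [Field F] [Fintype F] {τ : F ≃+* F} {p : ℕ} (hp : p.Prime) (hτ : orderOf τ = p) {r f : ℕ}
    (hr : r.Prime) (hF : Fintype.card F = r ^ f) :
    ∃ f' : ℕ, f = f' * p ∧ ∀ c : F, τ c = c → c ^ r ^ f' = c := by
  classical
  let H : Subgroup (RingAut F) := Subgroup.zpowers τ
  have hcard : Nat.card H = p := by rw [Nat.card_zpowers, hτ]
  have hfinH : Finite H := Nat.finite_of_card_ne_zero (by rw [hcard]; exact hp.ne_zero)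
  let _ : Fintype H := Fintype.ofFinite H
  have h1 := FixedPoints.finrank_eq_card H F
  rw [← Nat.card_eq_fintype_card, hcard] at h1
  have h2 := Module.natCard_eq_pow_finrank (K := FixedPoints.subfield H F) (V := F)
  rw [h1, Nat.card_eq_fintype_card (α := F), hF] at h2
  have h3 : Nat.card (FixedPoints.subfield H F) ∣ r ^ f := by rw [h2]; exact dvd_pow_self _ hp.ne_zero
  obtain ⟨f', -, hf'⟩ := (Nat.dvd_prime_pow hr).1 h3
  rw [hf', ← pow_mul] at h2
  refine ⟨f', Nat.pow_right_injective hr.two_le h2, fun c hc => ?_⟩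
  have h4 : c ∈ FixedPoints.subfield H F := by
    rintro ⟨σ, k, rfl⟩
    show ((τ : RingAut F) ^ k) c = c
    have h5 : ∀ n : ℕ, ((τ : RingAut F) ^ n) c = c := by
      intro n
      induction n with
      | zero => rfl
      | succ n ih => rw [pow_succ, RingAut.mul_apply, hc, ih]
    rcases Int.eq_nat_or_neg k with ⟨n, rfl | rfl⟩
    · rw [zpow_natCast]; exact h5 n
    · rw [zpow_neg, zpow_natCast]
      have h6 : ((τ : RingAut F) ^ n)⁻¹ (((τ : RingAut F) ^ n) c) = c :=
        RingEquiv.symm_apply_apply ((τ : RingAut F) ^ n) c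
      rwa [h5 n] at h6
  let _ : Fintype (FixedPoints.subfield H F) := Fintype.ofFinite _
  have h5 := FiniteField.pow_card (⟨c, h4⟩ : FixedPoints.subfield H F)
  rw [← Nat.card_eq_fintype_card, hf'] at h5
  exact congrArg Subtype.val h5

variable {F : Type*} [Field F] {ι : Type*} [Fintype ι] [DecidableEq ι]

theorem root_pow {y : Matrix ι ι F} {l : ℕ} (hy : y ^ l = 1) {K : Type*} [Field K] [Algebra F K] {ζ : K}
    (hζ : (y.charpoly.map (algebraMap F K)).eval ζ = 0) : ζ ^ l = 1 := by
  rw [← Matrix.charpoly_map, Matrix.eval_charpoly, ← Matrix.exists_mulVec_eq_zero_iff] at hζ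
  obtain ⟨v, hv, h⟩ := hζ
  rw [Matrix.sub_mulVec, sub_eq_zero, Matrix.scalar_apply] at h
  have h1 : Matrix.mulVec (y.map (algebraMap F K)) v = ζ • v := by
    rw [← h]
    ext i
    simp [Matrix.mulVec_diagonal]
  have h2 : ∀ n : ℕ, Matrix.mulVec ((y.map (algebraMap F K)) ^ n) v = ζ ^ n • v := by
    intro n
    induction n with
    | zero => simp
    | succ n ih => rw [pow_succ, ← Matrix.mulVec_mulVec, h1, Matrix.mulVec_smul, ih, smul_smul, pow_succ']
  have h3 := h2 l
  have h4 : (y.map (algebraMap F K)) ^ l = 1 := by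
    have h5 := (algebraMap F K).mapMatrix.map_pow y l
    rw [hy, map_one] at h5
    exact h5.symm
  rw [h4, Matrix.one_mulVec] at h3
  by_contra hne
  apply hv
  have h5 : (ζ ^ l - 1) • v = 0 := by rw [sub_smul, ← h3, one_smul, sub_self]
  exact (smul_eq_zero.1 h5).resolve_left (sub_ne_zero.2 hne)

/-- A nontrivial matrix of prime order different from the characteristic has an eigenvalue different from 1. -/
theorem exists_root_ne {r : ℕ} [CharP F r] (hr : r.Prime) {y : Matrix ι ι F} {l : ℕ} (hl : l.Prime) (hlr : l ≠ r)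
    (hy : y ^ l = 1) (hy1 : y ≠ 1) :
    ∃ ζ : AlgebraicClosure F, (y.charpoly.map (algebraMap F (AlgebraicClosure F))).eval ζ = 0 ∧ ζ ≠ 1 := by
  classical
  by_contra hcon
  push Not at hcon
  have : Fact r.Prime := ⟨hr⟩
  set K := AlgebraicClosure F
  have hmon : (y.charpoly.map (algebraMap F K)).Monic := (Matrix.charpoly_monic y).map _
  have hspl := IsAlgClosed.splits (y.charpoly.map (algebraMap F K))
  have h1 : (y.charpoly.map (algebraMap F K)).roots = Multiset.replicate (y.charpoly.map (algebraMap F K)).roots.card 1 := by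
    rw [Multiset.eq_replicate_card]
    intro b hb
    exact hcon b ((Polynomial.mem_roots'.1 hb).2)
  have h2 : y.charpoly.map (algebraMap F K) = (X - C 1) ^ (y.charpoly.map (algebraMap F K)).roots.card := by
    conv_lhs => rw [hspl.eq_prod_roots_of_monic hmon, h1, Multiset.map_replicate, Multiset.prod_replicate]
  set n := (y.charpoly.map (algebraMap F K)).roots.card with hn
  have h3 : y.charpoly = (X - C 1) ^ n := by
    apply Polynomial.map_injective (algebraMap F K) (algebraMap F K).injective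
    rw [h2, Polynomial.map_pow, Polynomial.map_sub, Polynomial.map_X, Polynomial.map_C, (algebraMap F K).map_one]
  have h4 := Matrix.aeval_self_charpoly y
  rw [h3, map_pow, map_sub, aeval_X, aeval_C, map_one] at h4
  have hι : Nonempty ι := by
    by_contra hι
    rw [not_nonempty_iff] at hι
    exact hy1 (Subsingleton.elim _ _)
  have h5 : (y - 1) ^ r ^ n = 0 := by
    have h6 : n ≤ r ^ n := (Nat.lt_pow_self hr.one_lt).le
    rw [← Nat.sub_add_cancel h6, pow_add, h4, mul_zero]
  have hch : CharP (Matrix ι ι F) r := inferInstance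
  rw [sub_pow_char_pow_of_commute _ _ (Commute.one_right y), one_pow, sub_eq_zero] at h5
  apply hy1
  have hcop : Nat.Coprime l (r ^ n) := Nat.Coprime.pow_right _ ((Nat.coprime_primes hl hr).2 hlr)
  have h6 : orderOf y ∣ 1 := by
    rw [← Nat.Coprime.gcd_eq_one hcop]
    exact Nat.dvd_gcd (orderOf_dvd_of_pow_eq_one hy) (orderOf_dvd_of_pow_eq_one h5)
  exact orderOf_eq_one_iff.1 (Nat.dvd_one.1 h6)

/-- **The bound.** -/
theorem le_of_semi [Fintype F] {τ : F ≃+* F} {p : ℕ} (hp : p.Prime) (hτ : orderOf τ = p) {r f : ℕ} (hr : r.Prime)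
    (hF : Fintype.card F = r ^ f) {l d : ℕ} (hl : l.Prime) (hd : ∀ m, l ∣ r ^ m - 1 ↔ d * f ∣ m) (hd0 : d ≠ 0)
    {y g : Matrix ι ι F} (hg : IsUnit g) (hy : y ^ l = 1) (hy1 : y ≠ 1) (hgy : g * y.map τ = y * g) :
    p * d ≤ Fintype.card ι := by
  classical
  have hrf : Fact r.Prime := ⟨hr⟩
  obtain ⟨f', hf', hfix⟩ := exists_exp hp hτ hr hF
  have hf0 : f' ≠ 0 := by
    rintro rfl
    rw [zero_mul] at hf'
    rw [hf', pow_zero] at hF
    exact (Fintype.one_lt_card (α := F)).ne' hF
  have hch : CharP F r := by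
    obtain ⟨n, hpr, hn⟩ := FiniteField.card F (ringChar F)
    have h2 : ringChar F = r := by
      rw [hF] at hn
      have h3 : ringChar F ∣ r ^ f := by rw [hn]; exact dvd_pow_self _ n.2.ne'
      exact (Nat.prime_dvd_prime_iff_eq hpr hr).1 (hpr.dvd_of_dvd_pow h3)
    rw [← h2]
    exact ringChar.charP F
  have hlr : l ≠ r := by
    intro hlr
    subst hlr
    have h1 : l ∣ l ^ (d * f) - 1 := (hd _).2 dvd_rfl
    have h2 : l ∣ l ^ (d * f) := dvd_pow_self _ (Nat.mul_ne_zero hd0 (by rw [hf']; exact Nat.mul_ne_zero hf0 hp.ne_zero))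
    have h3 : 1 ≤ l ^ (d * f) := Nat.one_le_pow _ _ hl.pos
    have h4 := (Nat.dvd_sub_iff_right h3 h2).1 h1
    exact hl.one_lt.ne' (Nat.dvd_one.1 h4)
  set K := AlgebraicClosure F
  have hchK : CharP K r := charP_of_injective_algebraMap (algebraMap F K).injective r
  obtain ⟨ζ, hζ, hζ1⟩ := exists_root_ne hr hl hlr hy hy1
  have hζl := root_pow hy hζ
  have hlf : Fact l.Prime := ⟨hl⟩
  have hζo : orderOf ζ = l := orderOf_eq_prime hζl hζ1
  -- the characteristic polynomial is fixed
  have hχ : y.charpoly.map (τ : F →+* F) = y.charpoly := by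
    obtain ⟨u, rfl⟩ := hg
    have h1 : y = (u : Matrix ι ι F) * y.map τ * ((u⁻¹ : (Matrix ι ι F)ˣ) : Matrix ι ι F) := by
      rw [hgy, mul_assoc, Units.mul_inv, mul_one]
    have h2 := Matrix.charpoly_units_conj u (y.map τ)
    rw [← Matrix.coe_units_inv, ← h1] at h2
    have h3 : (y.map τ).charpoly = y.charpoly.map (τ : F →+* F) := Matrix.charpoly_map y (τ : F →+* F)
    rw [← h3, ← h2]
  have hcoef : ∀ i, (y.charpoly.coeff i) ^ r ^ f' = y.charpoly.coeff i := by
    intro i
    apply hfix
    conv_rhs => rw [← hχ]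
    rw [Polynomial.coeff_map]
    rfl
  set χ := y.charpoly.map (algebraMap F K) with hχ'
  have hmap : χ.map (iterateFrobenius K r f') = χ := by
    ext i
    rw [Polynomial.coeff_map, iterateFrobenius_def, hχ', Polynomial.coeff_map, ← map_pow, hcoef]
  have hstep : ∀ z : K, χ.eval z = 0 → χ.eval (z ^ r ^ f') = 0 := by
    intro z hz
    have h1 : (χ.map (iterateFrobenius K r f')).eval (iterateFrobenius K r f' z) = iterateFrobenius K r f' (χ.eval z) := by
      rw [Polynomial.eval_map, Polynomial.eval₂_hom]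
    rw [hmap, hz, map_zero, iterateFrobenius_def] at h1
    exact h1
  have hall : ∀ i : ℕ, χ.eval (ζ ^ (r ^ f') ^ i) = 0 := by
    intro i
    induction i with
    | zero => rw [pow_zero, pow_one]; exact hζ
    | succ i ih =>
      have := hstep _ ih
      rwa [← pow_mul, ← pow_succ] at this
  have hinj : Set.InjOn (fun i : ℕ => ζ ^ (r ^ f') ^ i) (Finset.range (p * d) : Finset ℕ) := by
    have key : ∀ i j : ℕ, i < j → j < p * d → ζ ^ (r ^ f') ^ i ≠ ζ ^ (r ^ f') ^ j := by
      intro i j hij hj heq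
      have h1 : (r ^ f') ^ j = (r ^ f') ^ i + (r ^ f') ^ i * ((r ^ f') ^ (j - i) - 1) := by
        have h2 : 1 ≤ (r ^ f') ^ (j - i) := Nat.one_le_pow _ _ (pow_pos hr.pos _)
        rw [Nat.mul_sub, mul_one, ← pow_add, Nat.add_sub_cancel' hij.le]
        have h3 : (r ^ f') ^ i ≤ (r ^ f') ^ j := Nat.pow_le_pow_right (pow_pos hr.pos _) hij.le
        omega
      rw [h1, pow_add] at heq
      have hζ0 : ζ ≠ 0 := by
        rintro rfl
        rw [zero_pow hl.ne_zero] at hζl
        exact zero_ne_one hζl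
      have h4 : ζ ^ ((r ^ f') ^ i * ((r ^ f') ^ (j - i) - 1)) = 1 := by
        have h5 := pow_ne_zero ((r ^ f') ^ i) hζ0
        exact (mul_right_eq_self₀.1 heq.symm).resolve_right h5
      have h5 : l ∣ (r ^ f') ^ i * ((r ^ f') ^ (j - i) - 1) := by
        rw [← hζo]; exact orderOf_dvd_of_pow_eq_one h4
      have h6 : ¬ l ∣ (r ^ f') ^ i := by
        intro h
        have := hl.dvd_of_dvd_pow (hl.dvd_of_dvd_pow h)
        exact hlr ((Nat.prime_dvd_prime_iff_eq hl hr).1 this)
      have h7 := (hl.dvd_mul.1 h5).resolve_left h6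
      rw [← pow_mul, hd, hf'] at h7
      have h8 : d * p ∣ j - i := by
        have h9 : f' * (d * p) ∣ f' * (j - i) := by
          have : d * (f' * p) = f' * (d * p) := by ring
          rwa [this] at h7
        exact Nat.dvd_of_mul_dvd_mul_left (Nat.pos_of_ne_zero hf0) h9
      have h9 := Nat.le_of_dvd (by omega) h8
      rw [mul_comm] at h9
      omega
    intro i hi j hj heq
    rw [Finset.mem_coe, Finset.mem_range] at hi hj
    rcases lt_trichotomy i j with h | h | h
    · exact absurd heq (key i j h hj)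
    · exact h
    · exact absurd heq.symm (key j i h hi)
  have hne : χ ≠ 0 := ((Matrix.charpoly_monic y).map _).ne_zero
  have h1 : ((Finset.range (p * d)).image fun i : ℕ => ζ ^ (r ^ f') ^ i) ⊆ χ.roots.toFinset := by
    intro z hz
    obtain ⟨i, -, rfl⟩ := Finset.mem_image.1 hz
    rw [Multiset.mem_toFinset, Polynomial.mem_roots hne]
    exact hall i
  have h2 := Finset.card_le_card h1
  rw [Finset.card_image_of_injOn hinj, Finset.card_range] at h2
  refine h2.trans ((Multiset.toFinset_card_le _).trans ((Polynomial.card_roots' χ).trans ?_))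
  rw [hχ', Polynomial.natDegree_map, Matrix.charpoly_natDegree_eq_dim]

end Cfsg.Agent.H566.SemiFix
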