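import Cfsg.Agent.H566.WeylTwoE

/-!
# Elements of a Weyl group unipotent of degree 2 modulo a prime `q ≥ 5` are trivial (helper566)

S4312, exceptional rows.
-/

set_option autoImplicit false

namespace Cfsg.Agent.H566.OmForm

open Cfsg Cfsg.Agent.ChevalleyStructure.CoxeterGeom Cfsg.Agent.H566.WeylTwo

variable {l : ℕ} {M : CoxeterMatrix (Fin l)} {A : Fin l → Fin l → ℤ}

/-- symmetrised positive definite Cartan matrix -/
structure Fm (A : Fin l → Fin l → ℤ) (d : Fin l → ℤ) : Prop where
  dpos : ∀ i, 0 < d i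
  symm : ∀ i j, d i * A i j = d j * A j i
  pos : ∀ v, bf (fun i j => d i * A i j) v v ≤ 0 → v = 0

namespace Fm

variable {d : Fin l → ℤ}

theorem single (i : Fin l) (v : Fin l → ℤ) :
    bf (fun i j => d i * A i j) (Pi.single i 1) v = d i * pairing A i v := by
  rw [bf_single, pairing, pairing, Finset.mul_sum]
  exact Finset.sum_congr rfl fun j _ => by ring

theorem refl_eq' (A : Fin l → Fin l → ℤ) (i : Fin l) (v : Fin l → ℤ) :
    refl A i v = v - pairing A i v • Pi.single i 1 := by
  rw [refl_apply, single_eq_smul]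

variable (F : Fm A d) (hA : IsCartan M A)

include F hA in
theorem inv_refl (i : Fin l) (u v : Fin l → ℤ) :
    bf (fun i j => d i * A i j) (refl A i u) (refl A i v) = bf (fun i j => d i * A i j) u v := by
  have h1 : bf (fun i j => d i * A i j) (Pi.single i 1) (Pi.single i 1) = d i * 2 := by
    rw [single, pairing_single, hA.diag, mul_one]
  have h2 : bf (fun i j => d i * A i j) u (Pi.single i 1) = d i * pairing A i u := by
    rw [bf_symm F.symm, single]
  rw [refl_eq', refl_eq']
  simp only [map_sub, map_smul, LinearMap.sub_apply, LinearMap.smul_apply, smul_eq_mul, h1, h2, single i v]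
  ring

include F in
theorem inv_rep (w : M.Group) (u v : Fin l → ℤ) :
    bf (fun i j => d i * A i j) (rep M.toCoxeterSystem hA w u) (rep M.toCoxeterSystem hA w v) =
      bf (fun i j => d i * A i j) u v := by
  induction w using M.toCoxeterSystem.simple_induction generalizing u v with
  | simple i => rw [rep_simple, F.inv_refl hA]
  | one => rw [map_one, Module.End.one_apply, Module.End.one_apply]
  | mul w w' h1 h2 => rw [rep_mul_apply, rep_mul_apply, h1, h2]

include F in
theorem nonneg (v : Fin l → ℤ) : 0 ≤ bf (fun i j => d i * A i j) v v := by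
  by_contra h
  push Not at h
  have h1 := F.pos v h.le
  rw [h1, map_zero] at h
  exact absurd h (lt_irrefl _)

include F in
theorem w_one {q : ℕ} (hq : q.Prime) (h5 : 5 ≤ q) (w : M.Group)
    (h : ∀ i, (q : ℤ) ∣ pairing A i (rep M.toCoxeterSystem hA w (Pi.single i 1)) - 4 +
      pairing A i (rep M.toCoxeterSystem hA w⁻¹ (Pi.single i 1))) : w = 1 := by
  apply rep_injective M.toCoxeterSystem hA
  have key : ∀ i, rep M.toCoxeterSystem hA w (Pi.single i 1) = Pi.single i 1 := by
    intro i
    have hh := h i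
    obtain ⟨e, he⟩ : ∃ e : Fin l → ℤ, e = Pi.single i 1 := ⟨_, rfl⟩
    have hd := F.dpos i
    have hB : ∀ v, bf (fun i j => d i * A i j) e v = d i * pairing A i v := fun v => by rw [he, single]
    have e0 : pairing A i e = 2 := by rw [he, pairing_single, hA.diag, mul_one]
    rw [← he] at hh ⊢
    have e1 : bf (fun i j => d i * A i j) e e = d i * 2 := by rw [hB, e0]
    have e3 : bf (fun i j => d i * A i j) e (rep M.toCoxeterSystem hA w⁻¹ e) =
        bf (fun i j => d i * A i j) e (rep M.toCoxeterSystem hA w e) := by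
      rw [← F.inv_rep hA w e, ← rep_mul_apply, mul_inv_cancel, map_one, Module.End.one_apply]
      exact bf_symm F.symm _ _
    have e4 : pairing A i (rep M.toCoxeterSystem hA w⁻¹ e) = pairing A i (rep M.toCoxeterSystem hA w e) := by
      rw [hB, hB] at e3
      exact mul_left_cancel₀ hd.ne' e3
    have e5 := F.inv_rep hA w e e
    have p1 := F.nonneg (rep M.toCoxeterSystem hA w e - e)
    have p2 := F.nonneg (rep M.toCoxeterSystem hA w e + e)
    have x1 : bf (fun i j => d i * A i j) (rep M.toCoxeterSystem hA w e - e) (rep M.toCoxeterSystem hA w e - e) =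
        2 * d i * (2 - pairing A i (rep M.toCoxeterSystem hA w e)) := by
      simp only [map_sub, LinearMap.sub_apply, e5, e1, hB, bf_symm F.symm (rep M.toCoxeterSystem hA w e) e]
      ring
    have x2 : bf (fun i j => d i * A i j) (rep M.toCoxeterSystem hA w e + e) (rep M.toCoxeterSystem hA w e + e) =
        2 * d i * (2 + pairing A i (rep M.toCoxeterSystem hA w e)) := by
      simp only [map_add, LinearMap.add_apply, e5, e1, hB, bf_symm F.symm (rep M.toCoxeterSystem hA w e) e]
      ring
    rw [x1] at p1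
    rw [x2] at p2
    rw [e4] at hh
    have b1 : 0 ≤ 2 - pairing A i (rep M.toCoxeterSystem hA w e) := nonneg_of_mul_nonneg_right p1 (by positivity)
    have b2 : 0 ≤ 2 + pairing A i (rep M.toCoxeterSystem hA w e) := nonneg_of_mul_nonneg_right p2 (by positivity)
    have h3 : (q : ℤ) ∣ 2 * (pairing A i (rep M.toCoxeterSystem hA w e) - 2) := by
      have : 2 * (pairing A i (rep M.toCoxeterSystem hA w e) - 2) = pairing A i (rep M.toCoxeterSystem hA w e) - 4 +
        pairing A i (rep M.toCoxeterSystem hA w e) := by ring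
      rw [this]; exact hh
    have hqi : Prime (q : ℤ) := Nat.prime_iff_prime_int.1 hq
    have h4 : (q : ℤ) ∣ pairing A i (rep M.toCoxeterSystem hA w e) - 2 := by
      rcases hqi.dvd_or_dvd h3 with h | h
      · have := Int.le_of_dvd (by norm_num) h
        omega
      · exact h
    have h6 : pairing A i (rep M.toCoxeterSystem hA w e) - 2 = 0 := by
      obtain ⟨c, hc⟩ := h4
      have hq5 : (5 : ℤ) ≤ q := by exact_mod_cast h5
      rcases lt_trichotomy c 0 with h7 | h7 | h7
      · have : (q : ℤ) * c ≤ q * (-1) := mul_le_mul_of_nonneg_left (by omega) (by omega)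
        omega
      · rw [hc, h7, mul_zero]
      · have : (q : ℤ) * 1 ≤ q * c := mul_le_mul_of_nonneg_left (by omega) (by omega)
        omega
    have h7 : pairing A i (rep M.toCoxeterSystem hA w e) = 2 := by omega
    refine sub_eq_zero.1 (F.pos _ ?_)
    rw [x1, h7]
    norm_num
  rw [map_one]
  apply LinearMap.pi_ext
  intro i x
  rw [single_eq_smul, map_smul, map_smul, key i, Module.End.one_apply]

end Fm

theorem fm7 : Fm A7 (fun _ => 1) := by
  have h : (fun i j => (1 : ℤ) * A7 i j) = A7 := by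
    funext i j; rw [one_mul]
  refine ⟨fun _ => by norm_num, fun i j => by rw [symm7], ?_⟩
  rw [h]
  exact pos7

theorem fm8 : Fm A8 (fun _ => 1) := by
  have h : (fun i j => (1 : ℤ) * A8 i j) = A8 := by
    funext i j; rw [one_mul]
  refine ⟨fun _ => by norm_num, fun i j => by rw [symm8], ?_⟩
  rw [h]
  exact pos8

/-- the Cartan matrix of type `F4` -/
def A4 : Fin 4 → Fin 4 → ℤ := ![![2, -1, 0, 0], ![-1, 2, -2, 0], ![0, -1, 2, -1], ![0, 0, -1, 2]]

theorem form4 (v : Fin 4 → ℤ) : 6 * bf (fun i j => (![1, 1, 2, 2] : Fin 4 → ℤ) i * A4 i j) v v =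
    3 * ((2 * v 0 - v 1) * (2 * v 0 - v 1)) + ((3 * v 1 - 4 * v 2) * (3 * v 1 - 4 * v 2)) +
      2 * ((2 * v 2 - 3 * v 3) * (2 * v 2 - 3 * v 3)) + 6 * (v 3 * v 3) := by
  rw [bf_apply]
  simp only [Fin.sum_univ_succ, Fin.sum_univ_zero, A4]
  simp
  ring

theorem pos4 (v : Fin 4 → ℤ) (h : bf (fun i j => (![1, 1, 2, 2] : Fin 4 → ℤ) i * A4 i j) v v ≤ 0) : v = 0 := by
  have h1 := form4 v
  have p0 := mul_self_nonneg (2 * v 0 - v 1)
  have p1 := mul_self_nonneg (3 * v 1 - 4 * v 2)
  have p2 := mul_self_nonneg (2 * v 2 - 3 * v 3)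
  have p3 := mul_self_nonneg (v 3)
  have q0 : 2 * v 0 - v 1 = 0 := mul_self_eq_zero.1 (le_antisymm (by omega) p0)
  have q1 : 3 * v 1 - 4 * v 2 = 0 := mul_self_eq_zero.1 (le_antisymm (by omega) p1)
  have q2 : 2 * v 2 - 3 * v 3 = 0 := mul_self_eq_zero.1 (le_antisymm (by omega) p2)
  have q3 : v 3 = 0 := mul_self_eq_zero.1 (le_antisymm (by omega) p3)
  funext i
  fin_cases i <;> simp only [Pi.zero_apply] <;> simp <;> omega

theorem fm4 : Fm A4 ![1, 1, 2, 2] where
  dpos := by decide +kernel
  symm := by decide +kernel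
  pos := pos4

end Cfsg.Agent.H566.OmForm
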