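import Cfsg.Agent.S0144
import Cfsg.Agent.Lib.SolvableNormalP

/-!
# `{2, 7}`-groups of permutations of 7 or 8 points (helper566)
-/

set_option autoImplicit false

namespace Cfsg.Agent.H566.PermSeven

open Subgroup

variable {G X : Type*} [Group G] [MulAction G X]

theorem no_fix [Finite X] [FaithfulSMul G X] (hX : Nat.card X = 7) {x : G} (hx : orderOf x = 7) (j : X) :
    x • j ≠ j := by
  intro hj
  have hp : Fact (Nat.Prime 7) := ⟨by norm_num⟩
  have hC : IsPGroup 7 (zpowers x) := IsPGroup.of_card (n := 1) (by rw [Nat.card_zpowers, hx, pow_one])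
  have h1 := hC.card_modEq_card_fixedPoints X
  rw [hX] at h1
  have h2 : Nat.card (MulAction.fixedPoints (zpowers x) X) ≤ 7 := by
    rw [← hX]; exact Nat.card_le_card_of_injective _ Subtype.val_injective
  have hfix : j ∈ MulAction.fixedPoints (zpowers x) X := by
    rintro ⟨y, m, rfl⟩
    show x ^ m • j = j
    have h3 : x ∈ MulAction.stabilizer G j := hj
    exact zpow_mem h3 m
  have h3 : Nat.card (MulAction.fixedPoints (zpowers x) X) ≠ 0 := by
    rw [Nat.card_ne_zero]
    exact ⟨⟨⟨j, hfix⟩⟩, inferInstance⟩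
  have h4 : Nat.card (MulAction.fixedPoints (zpowers x) X) = 7 := by
    have h5 : Nat.card (MulAction.fixedPoints (zpowers x) X) % 7 = 0 := by
      have := h1.symm
      unfold Nat.ModEq at this
      omega
    omega
  have h5 : MulAction.fixedPoints (zpowers x) X = Set.univ := by
    apply Set.eq_of_subset_of_ncard_le (Set.subset_univ _)
    rw [Set.ncard_univ, hX, ← Nat.card_coe_set_eq, h4]
  have h6 : x = 1 := by
    apply FaithfulSMul.eq_of_smul_eq_smul (α := X)
    intro a
    rw [one_smul]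
    have h7 : a ∈ MulAction.fixedPoints (zpowers x) X := by rw [h5]; trivial
    exact h7 ⟨x, mem_zpowers x⟩
  rw [h6, orderOf_one] at hx
  norm_num at hx

theorem trans [Finite X] [FaithfulSMul G X] (hX : Nat.card X = 7) {x : G} (hx : orderOf x = 7) (j k : X) :
    ∃ m : ℤ, x ^ m • j = k := by
  have hp : Fact (Nat.Prime 7) := ⟨by norm_num⟩
  have hcard : Nat.card (zpowers x) = 7 := by rw [Nat.card_zpowers, hx]
  have hfin : Finite (zpowers x) := Nat.finite_of_card_ne_zero (by rw [hcard]; norm_num)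
  have h1 := MulAction.index_stabilizer (zpowers x) j
  have hp' : Fact (Nat.card (zpowers x)).Prime := ⟨by rw [hcard]; norm_num⟩
  have h2 : MulAction.stabilizer (zpowers x) j = ⊥ := by
    rcases (MulAction.stabilizer (zpowers x) j).eq_bot_or_eq_top_of_prime_card with h | h
    · exact h
    · exfalso
      have h3 : (⟨x, mem_zpowers x⟩ : zpowers x) ∈ MulAction.stabilizer (zpowers x) j := by rw [h]; trivial
      exact no_fix hX hx j h3
  rw [h2, index_bot, hcard] at h1
  have h3 : MulAction.orbit (zpowers x) j = Set.univ := by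
    apply Set.eq_of_subset_of_ncard_le (Set.subset_univ _)
    rw [Set.ncard_univ, hX, ← h1]
  have h4 : k ∈ MulAction.orbit (zpowers x) j := by rw [h3]; trivial
  obtain ⟨⟨y, m, rfl⟩, hy⟩ := h4
  exact ⟨m, hy⟩

/-- **7 points** -/
theorem seven [Finite G] [Finite X] [FaithfulSMul G X] (hX : Nat.card X = 7)
    (hG : ∀ q : ℕ, q.Prime → q ∣ Nat.card G → q = 2 ∨ q = 7) (h7 : 7 ∣ Nat.card G) : ¬ 4 ∣ Nat.card G := by
  intro h4
  have hp7 : Fact (Nat.Prime 7) := ⟨by norm_num⟩
  have hp2 : Fact (Nat.Prime 2) := ⟨Nat.prime_two⟩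
  obtain ⟨x, hx⟩ := exists_prime_orderOf_dvd_card' 7 h7
  have hne : Nonempty X := (Nat.card_pos_iff.1 (by rw [hX]; norm_num)).1
  obtain ⟨j⟩ := hne
  -- solvable
  have hsol : Group.IsSolvable G := by
    have h0 : Nat.card G ≠ 0 := Nat.card_pos.ne'
    obtain ⟨a, m, hm, hG'⟩ := Nat.exists_eq_pow_mul_and_not_dvd h0 2 (by norm_num)
    have hm0 : m ≠ 0 := by
      rintro rfl
      exact hm (dvd_zero 2)
    have h2 : m = 7 ^ m.primeFactorsList.length := Nat.eq_prime_pow_of_unique_prime_dvd hm0 fun {d} hd hdm => by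
      rcases hG d hd (by rw [hG']; exact hdm.mul_left _) with rfl | rfl
      · exact absurd hdm hm
      · rfl
    exact Cfsg.Agent.S0144.result 2 7 a _ Nat.prime_two (by norm_num) (by rw [hG']; congr 1)
  have hnt : Nontrivial G := ⟨x, 1, fun h => by rw [h, orderOf_one] at hx; norm_num at hx⟩
  obtain ⟨p, N, hp, hN, hNp, hNc, hNb⟩ := Cfsg.Agent.Lib.SolvableNormalP.exists_normal_pSubgroup G
  have hpf : Fact p.Prime := ⟨hp⟩
  obtain ⟨k, hk⟩ := hNp.exists_card_eq
  have hk0 : k ≠ 0 := by
    rintro rfl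
    rw [pow_zero, Subgroup.card_eq_one] at hk
    exact hNb hk
  have hpG : p ∣ Nat.card G := (dvd_pow_self p hk0).trans (by rw [← hk]; exact card_subgroup_dvd_card N)
  rcases hG p hp hpG with rfl | rfl
  · -- `p = 2`
    have h1 := hNp.card_modEq_card_fixedPoints X
    rw [hX] at h1
    have h2 : Nat.card (MulAction.fixedPoints N X) ≠ 0 := by
      intro h
      rw [h] at h1
      exact absurd h1 (by decide)
    rw [Nat.card_ne_zero] at h2
    obtain ⟨⟨⟨i, hi⟩⟩, -⟩ := h2
    apply hNb
    rw [eq_bot_iff]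
    intro y hy
    rw [mem_bot]
    apply FaithfulSMul.eq_of_smul_eq_smul (α := X)
    intro a
    rw [one_smul]
    obtain ⟨m, rfl⟩ := trans hX hx i a
    have h3 : (x ^ m)⁻¹ * y * (x ^ m)⁻¹⁻¹ ∈ N := hN.conj_mem y hy _
    rw [inv_inv] at h3
    have h4 : ((x ^ m)⁻¹ * y * (x ^ m)) • i = i := hi ⟨_, h3⟩
    calc y • x ^ m • i = (x ^ m) • ((x ^ m)⁻¹ * y * (x ^ m)) • i := by rw [← mul_smul, ← mul_smul]; group
      _ = _ := by rw [h4]
  · -- `p = 7`
    have hdvd : Nat.card G ∣ 5040 := by
      have h1 : Nat.card (Equiv.Perm X) = 5040 := by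
        rw [Nat.card_perm, hX]; rfl
      rw [← h1]
      exact card_dvd_of_injective (MulAction.toPermHom G X) MulAction.toPerm_injective
    have hk1 : k = 1 := by
      have h1 : 7 ^ k ∣ 5040 := by rw [← hk]; exact (card_subgroup_dvd_card N).trans hdvd
      by_contra hne
      have h2 : 7 ^ 2 ∣ 5040 := (pow_dvd_pow 7 (by omega)).trans h1
      norm_num at h2
    rw [hk1, pow_one] at hk
    have hNcyc : IsCyclic N := isCyclic_of_prime_card hk
    obtain ⟨y, hy⟩ := exists_prime_orderOf_dvd_card' (G := N) 7 (by rw [hk])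
    have hyo : orderOf (y : G) = 7 := by rw [orderOf_coe, hy]
    -- the stabiliser
    have hidx : (MulAction.stabilizer G j).index = 7 := by
      rw [MulAction.index_stabilizer]
      have h3 : MulAction.orbit G j = Set.univ := by
        rw [Set.eq_univ_iff_forall]
        intro a
        obtain ⟨m, hm⟩ := trans hX hx j a
        exact ⟨x ^ m, hm⟩
      rw [h3, Set.ncard_univ, hX]
    have hcard := (MulAction.stabilizer G j).card_mul_index
    rw [hidx] at hcard
    have h5 : Nat.card (MulAction.stabilizer G j) ∣ 6 := by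
      have h6 : Nat.card (MulAut N) = 6 := by
        rw [IsCyclic.card_mulAut, hk]; rfl
      rw [← h6]
      apply card_dvd_of_injective ((MulAut.conjNormal (H := N)).comp (MulAction.stabilizer G j).subtype)
      rw [injective_iff_map_eq_one]
      intro h hh
      apply Subtype.ext
      show (h : G) = 1
      apply FaithfulSMul.eq_of_smul_eq_smul (α := X)
      intro a
      rw [one_smul]
      obtain ⟨m, rfl⟩ := trans hX hyo j a
      have h7 : (h : G) * ((y ^ m : N) : G) * (h : G)⁻¹ = ((y ^ m : N) : G) := by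
        have h8 := congrArg (fun f : MulAut N => ((f (y ^ m) : N) : G)) hh
        exact h8
      have h8 : (h : G) * (y : G) ^ m = (y : G) ^ m * (h : G) := by
        rw [coe_zpow] at h7
        exact mul_inv_eq_iff_eq_mul.1 h7
      have h9 : (h : G) • j = j := h.2
      rw [← mul_smul, h8, mul_smul, h9]
    have h6 : 4 ∣ Nat.card (MulAction.stabilizer G j) := by
      rw [← hcard] at h4
      exact (Nat.Coprime.dvd_mul_right (by norm_num)).1 h4
    exact absurd (h6.trans h5) (by norm_num)

/-- **8 points** -/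
theorem eight [Finite G] [Finite X] [FaithfulSMul G X] (hX : Nat.card X = 8)
    (hG : ∀ q : ℕ, q.Prime → q ∣ Nat.card G → q = 2 ∨ q = 7) (h7 : 7 ∣ Nat.card G) : ¬ 32 ∣ Nat.card G := by
  intro h32
  classical
  have hp7 : Fact (Nat.Prime 7) := ⟨by norm_num⟩
  obtain ⟨x, hx⟩ := exists_prime_orderOf_dvd_card' 7 h7
  have hC : IsPGroup 7 (zpowers x) := IsPGroup.of_card (n := 1) (by rw [Nat.card_zpowers, hx, pow_one])
  have h1 := hC.card_modEq_card_fixedPoints X
  rw [hX] at h1
  have h2 : Nat.card (MulAction.fixedPoints (zpowers x) X) ≠ 0 := by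
    intro h
    rw [h] at h1
    exact absurd h1 (by decide)
  rw [Nat.card_ne_zero] at h2
  obtain ⟨⟨⟨i, hi⟩⟩, -⟩ := h2
  have hxi : x • i = i := hi ⟨x, mem_zpowers x⟩
  set S := MulAction.stabilizer G i with hS
  -- the action on the other points
  let Y := {a : X // a ≠ i}
  have hYi : ∀ (s : S) (a : Y), (s : G) • (a : X) ≠ i := by
    intro s a h
    apply a.2
    have h3 : (s : G)⁻¹ • (s : G) • (a : X) = (s : G)⁻¹ • i := by rw [h]
    rw [inv_smul_smul] at h3
    rw [h3]
    exact (inv_mem s.2 : (s : G)⁻¹ ∈ S)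
  let act : MulAction S Y :=
    { smul := fun s a => ⟨(s : G) • (a : X), hYi s a⟩
      one_smul := fun a => Subtype.ext (one_smul G (a : X))
      mul_smul := fun s u a => Subtype.ext (mul_smul (s : G) (u : G) (a : X)) }
  have hact : ∀ (s : S) (a : Y), ((s • a : Y) : X) = (s : G) • (a : X) := fun _ _ => rfl
  have hfaith : FaithfulSMul S Y := by
    refine ⟨fun {s u} h => ?_⟩
    apply Subtype.ext
    apply FaithfulSMul.eq_of_smul_eq_smul (α := X)
    intro a
    by_cases ha : a = i
    · rw [ha]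
      have e1 : (s : G) • i = i := s.2
      have e2 : (u : G) • i = i := u.2
      rw [e1, e2]
    · have h3 := congrArg Subtype.val (h ⟨a, ha⟩)
      rwa [hact, hact] at h3
  have hY : Nat.card Y = 7 := by
    have h3 : Nat.card ({i}ᶜ : Set X) = 7 := by
      rw [Nat.card_coe_set_eq, Set.ncard_compl, hX, Set.ncard_singleton]
    exact h3
  have hS7 : 7 ∣ Nat.card S := by
    have h3 := orderOf_dvd_natCard (⟨x, hxi⟩ : S)
    rwa [← orderOf_coe, hx] at h3
  have h4 := seven (G := S) (X := Y) hY (fun q hq hqd => hG q hq (hqd.trans (card_subgroup_dvd_card S))) hS7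
  have hcard := S.card_mul_index
  have hidx : S.index ≤ 8 := by
    rw [hS, MulAction.index_stabilizer, ← hX, ← Set.ncard_univ]
    exact Set.ncard_le_ncard (Set.subset_univ _)
  have hm0 : S.index ≠ 0 := index_ne_zero_of_finite
  rw [← hcard] at h32
  generalize Nat.card S = c at *
  generalize S.index = m at *
  interval_cases m <;> omega

end Cfsg.Agent.H566.PermSeven
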