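import Cfsg.Agent.H566.SemiFix
import Cfsg.Agent.H568.RowTools
import Cfsg.Agent.H568.LinP
import Cfsg.Agent.H967.CopSz

/-!
# S4329: outer automorphisms of matrix groups whose automorphisms are inner times field automorphisms (helper566)
-/

set_option autoImplicit false

namespace Cfsg.Agent.H566.RowFld

open Subgroup Cfsg.Agent.H568 Cfsg.Agent.H967.CopMat

variable {ι : Type*} [Fintype ι] [DecidableEq ι] {F : Type*} [Field F] {G : Subgroup (GL ι F)}

/-- Field automorphisms are not inner. -/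
theorem eq_one_of_inner (hG : Stab G) [Fintype F] {p n : ℕ} [Fact p.Prime] [CharP F p] (hn : 1 ≤ n)
    (hF : Fintype.card F = p ^ n) (hOut : Nat.card (Cfsg.Out ↥G) = n)
    (h : ∀ ψ : MulAut ↥G, ∃ (g : ↥G) (σ : F ≃+* F), ψ = MulAut.conj g * fieldAut hG σ) {σ : F ≃+* F}
    (hσ : ∃ s : ↥G, fieldAut hG σ = MulAut.conj s) : σ = 1 := by
  let f : (F ≃+* F) →* Cfsg.Out ↥G := (QuotientGroup.mk' (Cfsg.Inn ↥G)).comp (fieldAut hG)
  have hs : Function.Surjective f := by
    intro x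
    obtain ⟨ψ, rfl⟩ := QuotientGroup.mk'_surjective _ x
    obtain ⟨g, σ, rfl⟩ := h ψ
    refine ⟨σ, ?_⟩
    have h1 : QuotientGroup.mk' (Cfsg.Inn ↥G) (MulAut.conj g) = 1 :=
      (QuotientGroup.eq_one_iff _).2 ⟨g, rfl⟩
    rw [map_mul, h1, one_mul]
    rfl
  have hfin : Finite (F ≃+* F) := Finite.of_injective (fun f : F ≃+* F => (f : F → F)) DFunLike.coe_injective
  have hc : Nat.card (F ≃+* F) = n := Cfsg.Agent.Lib.FieldAutCard.card_ringAut hn hF
  have hfO : Finite (Cfsg.Out ↥G) := Finite.of_surjective f hs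
  have hinj : Function.Injective f := by
    have := (Nat.bijective_iff_surjective_and_card f).2 ⟨hs, by rw [hc, hOut]⟩
    exact this.1
  obtain ⟨s, hs'⟩ := hσ
  apply hinj
  rw [map_one]
  show QuotientGroup.mk' (Cfsg.Inn ↥G) (fieldAut hG σ) = 1
  rw [hs']
  exact (QuotientGroup.eq_one_iff _).2 ⟨s, rfl⟩

/-- The data of a family. -/
structure Dat (G : Subgroup (GL ι F)) [Fintype F] (r f l d : ℕ) : Prop where
  stab : Stab G
  hr : r.Prime
  hF : Fintype.card F = r ^ f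
  aut : ∀ ψ : MulAut ↥G, ∃ (g : ↥G) (σ : F ≃+* F), ψ = MulAut.conj g * fieldAut stab σ
  inn : ∀ σ : F ≃+* F, (∃ s : ↥G, fieldAut stab σ = MulAut.conj s) → σ = 1
  hl : l.Prime
  hd : ∀ m, l ∣ r ^ m - 1 ↔ d * f ∣ m
  hd0 : d ≠ 0
  hlG : l ∣ Nat.card G

/-- An outer automorphism of prime order `p` is a conjugation times a field automorphism of order `p`. -/
theorem Dat.outer [Fintype F] {r f l d : ℕ} (D : Dat G r f l d) {p : ℕ} (hp : p.Prime) {a : MulAut ↥G}
    (ha : orderOf a = p) (hout : ∀ s, a ≠ MulAut.conj s) :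
    ∃ (g : ↥G) (σ : F ≃+* F), a = MulAut.conj g * fieldAut D.stab σ ∧ orderOf σ = p := by
  have hpf : Fact p.Prime := ⟨hp⟩
  obtain ⟨g, σ, h⟩ := D.aut a
  refine ⟨g, σ, h, orderOf_eq_prime ?_ ?_⟩
  · apply D.inn
    have key : ∀ n : ℕ, ∃ s : ↥G, a ^ n = MulAut.conj s * fieldAut D.stab (σ ^ n) := by
      intro n
      induction n with
      | zero => exact ⟨1, by rw [pow_zero, pow_zero, map_one, map_one, one_mul]⟩
      | succ n ih =>
        obtain ⟨s, hs⟩ := ih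
        refine ⟨s * fieldAut D.stab (σ ^ n) g, ?_⟩
        rw [pow_succ, hs, h, pow_succ, map_mul (fieldAut D.stab) (σ ^ n) σ, map_mul]
        ext x : 1
        simp only [MulAut.mul_apply, MulAut.conj_apply, map_mul, map_inv]
    obtain ⟨s, hs⟩ := key p
    have h1 : a ^ p = 1 := by rw [← ha, pow_orderOf_eq_one]
    rw [h1] at hs
    refine ⟨s⁻¹, ?_⟩
    rw [map_inv]
    exact (inv_eq_of_mul_eq_one_right hs.symm).symm
  · rintro rfl
    apply hout g
    rw [h, map_one, mul_one]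

theorem Dat.ne [Fintype F] {r f l d : ℕ} (D : Dat G r f l d) : l ≠ r ∧ f ≠ 0 ∧ d * f ∣ l - 1 := by
  have hf0 : f ≠ 0 := by
    rintro rfl
    have := D.hF
    rw [pow_zero] at this
    exact (Fintype.one_lt_card (α := F)).ne' this
  have hlr : l ≠ r := by
    intro hlr
    have h1 : l ∣ r ^ (d * f) - 1 := (D.hd _).2 dvd_rfl
    rw [← hlr] at h1
    have h2 : l ∣ l ^ (d * f) := dvd_pow_self _ (Nat.mul_ne_zero D.hd0 hf0)
    have h3 : 1 ≤ l ^ (d * f) := Nat.one_le_pow _ _ D.hl.pos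
    have h4 := (Nat.dvd_sub_iff_right h3 h2).1 h1
    exact D.hl.one_lt.ne' (Nat.dvd_one.1 h4)
  refine ⟨hlr, hf0, (D.hd _).1 ?_⟩
  have hlf : Fact l.Prime := ⟨D.hl⟩
  have h1 : ((r : ZMod l)) ^ (l - 1) = 1 := by
    apply ZMod.pow_card_sub_one_eq_one
    rw [Ne, ZMod.natCast_eq_zero_iff]
    intro h
    exact hlr ((Nat.prime_dvd_prime_iff_eq D.hl D.hr).1 h)
  have h2 : ((r ^ (l - 1) : ℕ) : ZMod l) = ((1 : ℕ) : ZMod l) := by push_cast; exact h1
  rw [ZMod.natCast_eq_natCast_iff] at h2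
  exact (Nat.modEq_iff_dvd' (Nat.one_le_pow _ _ D.hr.pos)).1 h2.symm

theorem Dat.le [Fintype F] {r f l d : ℕ} (D : Dat G r f l d) : d * f < l := by
  have h1 := Nat.le_of_dvd (by have := D.hl.two_le; omega) D.ne.2.2
  have := D.hl.two_le
  omega

/-- **Elements of order `l` are moved by all conjugates of an outer automorphism of order `p`.** -/
theorem Dat.moved [Fintype F] {r f l d : ℕ} (D : Dat G r f l d) (h3 : Fintype.card ι < 3 * d) {p : ℕ} (hp : p.Prime)
    (hp2 : p ≠ 2) {a : MulAut ↥G} (ha : orderOf a = p) (hout : ∀ s, a ≠ MulAut.conj s) {x : ↥G} (hx : orderOf x = l)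
    (g : MulAut ↥G) : (g * a * g⁻¹) x ≠ x := by
  intro h1
  have h2 : a (g⁻¹ x) = g⁻¹ x := by
    have h3 := congrArg (g⁻¹ : MulAut ↥G) h1
    rw [MulAut.mul_apply, MulAut.mul_apply, MulAut.inv_apply_self] at h3
    exact h3
  set y := g⁻¹ x with hy
  have hyo : orderOf y = l := by rw [hy, MulEquiv.orderOf_eq, hx]
  obtain ⟨k, σ, hk, hσ⟩ := D.outer hp ha hout
  rw [hk, MulAut.mul_apply, MulAut.conj_apply, mul_inv_eq_iff_eq_mul] at h2
  have h4 : ((k : GL ι F) : Matrix ι ι F) * (((y : GL ι F) : Matrix ι ι F)).map σ =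
      ((y : GL ι F) : Matrix ι ι F) * ((k : GL ι F) : Matrix ι ι F) := congrArg (fun z : ↥G => ((z : GL ι F) : Matrix ι ι F)) h2
  have h5 := SemiFix.le_of_semi hp hσ D.hr D.hF D.hl D.hd D.hd0 (y := ((y : GL ι F) : Matrix ι ι F))
    (g := ((k : GL ι F) : Matrix ι ι F)) (k : GL ι F).isUnit ?_ ?_ h4
  · have h6 : 3 ≤ p := by
      have := hp.two_le
      omega
    have h7 : 3 * d ≤ p * d := Nat.mul_le_mul_right d h6
    omega
  · have h6 : y ^ l = 1 := by rw [← hyo, pow_orderOf_eq_one]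
    have h7 := congrArg (fun z : ↥G => ((z : GL ι F) : Matrix ι ι F)) h6
    simpa using h7
  · intro h6
    have h7 : y = 1 := Subtype.ext (Units.ext h6)
    rw [h7, orderOf_one] at hyo
    exact D.hl.one_lt.ne hyo

/-- **`PCent` in dimension less than `l`.** -/
theorem Dat.pcent [Fintype F] [Finite G] {r f l d : ℕ} (D : Dat G r f l d) (hdim : Fintype.card ι < l) {p : ℕ} (hp : p.Prime)
    (hp2 : p ≠ 2) (hpr : p ≠ r) (hlp : l ≠ p) {x : ↥G} (hx : orderOf x = l) : PCent p x := by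
  intro Q hQ hn
  have hch : CharP F r := Cfsg.Agent.H967.CopSz.charP_of_card D.hr D.hF
  have hpk : (p : F) ≠ 0 := by
    intro h
    rw [CharP.cast_eq_zero_iff F r] at h
    exact hpr ((Nat.prime_dvd_prime_iff_eq D.hr hp).1 h).symm
  refine linP G.subtype hp hp2 D.hl hlp hpk Q hQ ?_ x hn ?_ hdim
  · intro y _ h
    exact Subtype.ext h
  · intro y _
    rw [← hx, pow_orderOf_eq_one, one_mul, mul_one]

end Cfsg.Agent.H566.RowFld
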