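import Cfsg.Agent.H566.RowFld
import Cfsg.Agent.H438.SzMax
import Cfsg.Agent.OddRank.SzTits
import Cfsg.Agent.Lib.Zsigmondy

/-!
# S4329: the Suzuki groups (helper566)
-/

set_option autoImplicit false

namespace Cfsg.Agent.H566.RowSz

open Subgroup Cfsg Cfsg.Agent.H568 Cfsg.Agent.H967.CopMat Cfsg.Agent.H566.RowFld

variable {F : Type*} [Field F] [Fintype F] {m : ℕ}

theorem exists_dat (hm : 1 ≤ m) (hF : Fintype.card F = 2 ^ (2 * m + 1)) :
    ∃ l, Dat (Cfsg.Lie.Sz F (2 ^ (m + 1))) 2 (2 * m + 1) l 4 := by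
  obtain ⟨l, hl, hd, h1, h2⟩ := Cfsg.Agent.Lib.Zsigmondy.exists_primitive (a := 2) (n := 4 * (2 * m + 1)) le_rfl (by omega)
    (by omega) (by omega)
  have := Cfsg.Agent.H967.CopSz.two_prime
  have hc : CharP F 2 := Cfsg.Agent.H967.CopSz.charP_of_card Nat.prime_two hF
  have haut : ∀ ψ : MulAut ↥(Cfsg.Lie.Sz F (2 ^ (m + 1))), ∃ (g : ↥(Cfsg.Lie.Sz F (2 ^ (m + 1)))) (σ : F ≃+* F),
      ψ = MulAut.conj g * fieldAut (Cfsg.Agent.H967.CopSz.stab_sz hF) σ := by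
    intro ψ
    obtain ⟨g, σ, h⟩ := Cfsg.Agent.H70.SzAutThm.exists_conj_field hm hF ψ
    exact ⟨g, σ, h⟩
  refine ⟨l, Cfsg.Agent.H967.CopSz.stab_sz hF, Nat.prime_two, hF, haut, ?_, hl, hd, by norm_num, ?_⟩
  · intro σ hσ
    exact eq_one_of_inner _ (p := 2) (by omega) hF (S2126.result hm hF) haut hσ
  · rw [Cfsg.Agent.H438.SzMax.card_sz hF]
    apply Dvd.dvd.mul_left
    have h3 : l ∣ 2 ^ (4 * (2 * m + 1)) - 1 := (hd _).2 dvd_rfl
    have h4 : 2 ^ (4 * (2 * m + 1)) - 1 = ((2 ^ (2 * m + 1)) ^ 2 - 1) * ((2 ^ (2 * m + 1)) ^ 2 + 1) := by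
      have h5 : 1 ≤ (2 ^ (2 * m + 1)) ^ 2 := Nat.one_le_pow _ _ (by positivity)
      obtain ⟨k, hk⟩ := Nat.exists_eq_add_of_le h5
      have h6 : 2 ^ (4 * (2 * m + 1)) = ((2 ^ (2 * m + 1)) ^ 2) ^ 2 := by rw [← pow_mul, ← pow_mul]; congr 1; ring
      rw [h6, hk]
      have h7 : (1 + k) ^ 2 = 1 + k * (k + 2) := by ring
      rw [h7, Nat.add_sub_cancel_left, Nat.add_sub_cancel_left]
      ring
    rw [h4] at h3
    refine (hl.dvd_mul.1 h3).resolve_left fun h5 => ?_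
    rw [← pow_mul, hd] at h5
    have := Nat.le_of_dvd (by omega) h5
    omega

theorem row (K : Type*) [Group K] [Finite K] [IsSimpleGroup K] (h : Lie.IsoSuzuki K) (p : ℕ) [hp : Fact p.Prime]
    (hp2 : p ≠ 2) (hna : ¬ IsMulCommutative K) : Row p K := by
  have h' := h
  obtain ⟨F, _, _, m, hm, hF, ⟨e⟩⟩ := h
  obtain ⟨l, D⟩ := exists_dat hm hF
  refine Row.congr e.symm ?_
  have hsim : IsSimpleGroup ↥(Cfsg.Lie.Sz F (2 ^ (m + 1))) := e.symm.isSimpleGroup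
  have hna' : ¬ IsMulCommutative ↥(Cfsg.Lie.Sz F (2 ^ (m + 1))) := by
    intro hc
    apply hna
    refine ⟨⟨fun x y => e.injective ?_⟩⟩
    rw [map_mul, map_mul]
    exact hc.is_comm.comm _ _
  refine row_of hna' fun a ha => ?_
  by_cases hin : ∃ s, a = MulAut.conj s
  · left
    refine ⟨hin, default, ?_⟩
    have hX : Lie.IsoSuzuki ↥(Cfsg.Lie.Sz F (2 ^ (m + 1))) := ⟨F, _, _, m, hm, hF, ⟨MulEquiv.refl _⟩⟩
    exact Cfsg.Agent.OddRank.SzTits.isCyclic_of_isPGroup hX hp2 _ (default : Sylow p _).2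
  · push Not at hin
    right; right
    obtain ⟨⟨x⟩⟩ : Nonempty (Nonempty {x : ↥(Cfsg.Lie.Sz F (2 ^ (m + 1))) // orderOf x = l}) := by
      have hlf : Fact l.Prime := ⟨D.hl⟩
      obtain ⟨x, hx⟩ := exists_prime_orderOf_dvd_card' l D.hlG
      exact ⟨⟨x, hx⟩⟩
    obtain ⟨x, hx⟩ := x
    have hl := D.le
    have hlp : l ≠ p := by
      rintro rfl
      obtain ⟨g, σ, -, hσ⟩ := D.outer hp.1 ha hin
      obtain ⟨f', hf', -⟩ := SemiFix.exists_exp hp.1 hσ D.hr D.hF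
      have : f' ≠ 0 := by
        rintro rfl
        omega
      have h2 : l ≤ f' * l := Nat.le_mul_of_pos_left l (Nat.pos_of_ne_zero this)
      omega
    refine ⟨x, ?_, D.pcent ?_ hp.1 hp2 hp2 hlp hx, D.moved ?_ hp.1 hp2 ha hin hx⟩
    · rw [hx]
      intro h3
      exact hlp ((Nat.prime_dvd_prime_iff_eq hp.1 D.hl).1 h3).symm
    · rw [Fintype.card_fin]
      omega
    · rw [Fintype.card_fin]
      norm_num

end Cfsg.Agent.H566.RowSz
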