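import Cfsg.Agent.H566.SubnRed
import Cfsg.Agent.Lib.SubnormalJoin

/-!
# S4328 from the rows of S4329 (helper566)
-/

set_option autoImplicit false

namespace Cfsg.Agent.H566.Subn

open Subgroup Cfsg Cfsg.Agent.Lib.MinNormal Cfsg.Agent.Lib.MinNormalNonabelian Cfsg.Agent.H568
open scoped Pointwise

universe u

variable {G : Type u} [Group G] {p : ℕ}

/-- The hypothesis of S4328. -/
def Hyp1 (A : Subgroup G) : Prop :=
  ∀ c : G, ∃ g : G, IsConj c g ∧ (A.subgroupOf (A ⊔ zpowers g)).IsSubnormal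

theorem Hyp1.map {G' : Type u} [Group G'] {f : G →* G'} (hf : Function.Surjective f) {A : Subgroup G} (h : Hyp1 A) :
    Hyp1 (A.map f) := by
  intro c
  obtain ⟨c, rfl⟩ := hf c
  obtain ⟨g, hg, hsn⟩ := h c
  refine ⟨f g, ?_, ?_⟩
  · obtain ⟨x, hx⟩ := isConj_iff.mp hg
    exact isConj_iff.mpr ⟨f x, by rw [← hx]; simp⟩
  · have h1 := Reduce.sn_map f le_sup_left hsn
    rwa [Subgroup.map_sup, MonoidHom.map_zpowers] at h1

theorem Hyp1.hyp {A : Subgroup G} (h : Hyp1 A) : Reduce.Hyp A := by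
  intro c
  obtain ⟨g, hg, hsn⟩ := h c
  refine ⟨g, hg, Reduce.sn_of_le ?_ hsn⟩
  refine sup_le le_sup_left ?_
  intro x hx
  rw [Reduce.mem_conj_smul] at hx
  have h1 : g ∈ A ⊔ zpowers g := (le_sup_right : zpowers g ≤ A ⊔ zpowers g) (mem_zpowers g)
  have h2 := mul_mem (mul_mem h1 ((le_sup_left : A ≤ A ⊔ zpowers g) hx)) (inv_mem h1)
  have h3 : g * (g⁻¹ * x * g) * g⁻¹ = x := by group
  rwa [h3] at h2

theorem Hyp1.not_av [Finite G] [Fact p.Prime] {A : Subgroup G} (hA : IsPGroup p A) (h : Hyp1 A) {a : G} (ha : a ∈ A)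
    (x : G) : ¬ Av p a x := by
  intro hav
  obtain ⟨g, hg, hsn⟩ := h x
  obtain ⟨c, hc⟩ := isConj_iff.mp hg
  set L := A ⊔ zpowers g with hL
  have h1 := Sn.le_pCore_of_subnormal hA hsn
  set Y0 : Subgroup G := (pCore p L).map L.subtype with hY0
  have hY0p : IsPGroup p Y0 := (Cfsg.Agent.Lib.Cores.pCore_isPGroup (G := L) p).map _
  have haL : a ∈ L := (le_sup_left : A ≤ L) ha
  have hgL : g ∈ L := (le_sup_right : zpowers g ≤ L) (mem_zpowers g)
  have haY : a ∈ Y0 := ⟨⟨a, haL⟩, h1 ha, rfl⟩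
  have hn : (pCore p L).Normal := Cfsg.Agent.Lib.Cores.pCore_normal (G := L) p
  have hgn : ∀ n ∈ L, ∀ y ∈ Y0, n * y * n⁻¹ ∈ Y0 := by
    rintro n hnL _ ⟨y, hy, rfl⟩
    exact ⟨⟨n, hnL⟩ * y * ⟨n, hnL⟩⁻¹, hn.conj_mem y hy _, rfl⟩
  refine hav (Y0.map (MulAut.conj c⁻¹).toMonoidHom) (hY0p.map _) ⟨c⁻¹, a, haY, ?_⟩ ?_
  · rfl
  · have key : ∀ m : G, c * m * c⁻¹ ∈ L → ∀ y ∈ Y0.map (MulAut.conj c⁻¹).toMonoidHom,
        m * y * m⁻¹ ∈ Y0.map (MulAut.conj c⁻¹).toMonoidHom := by
      intro m hm y hy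
      rw [mem_map_conj] at hy ⊢
      have h3 := hgn _ hm _ hy
      have h4 : c * m * c⁻¹ * (c⁻¹⁻¹ * y * c⁻¹) * (c * m * c⁻¹)⁻¹ = c⁻¹⁻¹ * (m * y * m⁻¹) * c⁻¹ := by group
      rwa [h4] at h3
    rw [mem_normalizer_iff]
    intro y
    refine ⟨fun hy => key x (by rw [hc]; exact hgL) y hy, fun hy => ?_⟩
    have h3 := key x⁻¹ (by
      have : c * x⁻¹ * c⁻¹ = (c * x * c⁻¹)⁻¹ := by group
      rw [this, hc]; exact inv_mem hgL) _ hy
    have h4 : x⁻¹ * (x * y * x⁻¹) * x⁻¹⁻¹ = y := by group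
    rwa [h4] at h3

theorem comps_of_min [Finite G] {N : Subgroup G} [hN : N.Normal]
    (hmin : ∀ M : Subgroup G, M.Normal → M ≤ N → M = ⊥ ∨ M = N)
    (hna : ¬ ∀ x ∈ N, ∀ y ∈ N, Commute x y) : Comps G (minSet N) := by
  obtain ⟨h1, h2, h3, h4, h5, h6⟩ := nonabelian_structure N hmin hna
  refine ⟨?_, h5, fun T hT g => map_conj_mem_minSet hT g⟩
  intro S hS T hT hne x hx y hy
  exact commute_of_mem h2 (fun U hU => hU.2.2.1) (fun U hU => hU.1) hS hT hne hx hy

/-- The case of a unique nonabelian minimal normal subgroup. -/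
theorem exists_av [Finite G] [hp : Fact p.Prime] (hp2 : p ≠ 2)
    (hrow : ∀ (K : Type u) [Group K] [Finite K] [IsSimpleGroup K], ¬ IsMulCommutative K → Row p K)
    {N : Subgroup G} [hN : N.Normal]
    (hmin : ∀ M : Subgroup G, M.Normal → M ≤ N → M = ⊥ ∨ M = N)
    (hna : ¬ ∀ x ∈ N, ∀ y ∈ N, Commute x y) (hC : centralizer (N : Set G) = ⊥) {a : G} (ha : orderOf a = p)
    (hap : (a : G) ∈ (pCore p (G ⧸ N)).comap (QuotientGroup.mk' N)) : ∃ x : G, Av p a x := by
  obtain ⟨h1, h2, h3, h4, h5, h6⟩ := nonabelian_structure N hmin hna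
  have hs := comps_of_min hmin hna
  by_cases hfix : ∀ T ∈ minSet N, T.map (MulAut.conj a).toMonoidHom = T
  · -- some component is not centralised
    have hex : ∃ T ∈ minSet N, a ∉ centralizer (T : Set G) := by
      by_contra hcon
      push Not at hcon
      have h7 : N ≤ centralizer ({a} : Set G) := by
        rw [← h3]
        refine sSup_le fun T hT t ht => ?_
        rw [mem_centralizer_singleton_iff]
        exact mem_centralizer_iff.1 (hcon T hT) t ht
      have h8 : a ∈ centralizer (N : Set G) := by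
        rw [mem_centralizer_iff]
        intro n hn
        exact mem_centralizer_singleton_iff.1 (h7 hn)
      rw [hC, mem_bot] at h8
      rw [h8, orderOf_one] at ha
      exact hp.1.one_lt.ne ha
    obtain ⟨T, hT, hnc⟩ := hex
    have hTs := h4 T hT
    refine exists_av_of_fix hs hT (fun U hU => ?_) ha ?_ hnc (hrow _ ?_)
    · obtain ⟨g, hg⟩ := h6 T hT U hU
      exact ⟨g, hg.symm⟩
    · have h7 := hfix T hT
      rw [mem_normalizer_iff]
      intro t
      conv_rhs => rw [← h7]
      rw [mem_map_conj]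
      have h8 : a⁻¹ * (a * t * a⁻¹) * a = t := by group
      rw [h8]
    · intro hc
      obtain ⟨⟨x, hx⟩, hx1⟩ := exists_ne (1 : T)
      apply hx1
      apply Subtype.ext
      exact h5 T hT x hx fun t ht => congrArg Subtype.val (hc.is_comm.comm (⟨x, hx⟩ : T) ⟨t, ht⟩)
  · push Not at hfix
    obtain ⟨T, hT, hmove⟩ := hfix
    have hKn : ((pCore p (G ⧸ N)).comap (QuotientGroup.mk' N)).Normal :=
      (Cfsg.Agent.Lib.Cores.pCore_normal (G := G ⧸ N) p).comap _
    refine exists_av_of_move hp2 hs hT h4 (K := (pCore p (G ⧸ N)).comap (QuotientGroup.mk' N)) (N := N)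
      (fun U hU => hU.2.2.1) ?_ hap hmove
    intro x hx
    obtain ⟨k, hk⟩ := (Cfsg.Agent.Lib.Cores.pCore_isPGroup (G := G ⧸ N) p) ⟨QuotientGroup.mk' N x, hx⟩
    refine ⟨k, ?_⟩
    have h7 : (QuotientGroup.mk' N x) ^ p ^ k = 1 := by simpa using congrArg Subtype.val hk
    rw [← map_pow] at h7
    exact (QuotientGroup.eq_one_iff _).1 h7

/-- **S4328 from the rows of S4329.** -/
theorem main [hp : Fact p.Prime] (hp2 : p ≠ 2)
    (hrow : ∀ (K : Type u) [Group K] [Finite K] [IsSimpleGroup K], ¬ IsMulCommutative K → Row p K) :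
    ∀ (G : Type u) [Group G] [Finite G] (A : Subgroup G), IsPGroup p A → Hyp1 A → A ≤ pCore p G := by
  intro G _ _
  induction hn : Nat.card G using Nat.strong_induction_on generalizing G with
  | _ n ih =>
    subst hn
    intro A hA hyp
    have hquot : ∀ N : Subgroup G, N ≠ ⊥ → [hN : N.Normal] → A.map (QuotientGroup.mk' N) ≤ pCore p (G ⧸ N) := by
      intro N hN0 hN
      refine ih (Nat.card (G ⧸ N)) ?_ (G ⧸ N) rfl _ (hA.map _) (hyp.map (QuotientGroup.mk'_surjective N))
      have h1 := Subgroup.card_eq_card_quotient_mul_card_subgroup N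
      have h2 : 1 < Nat.card N := by
        rw [Subgroup.one_lt_card_iff_ne_bot]
        exact hN0
      have h3 : 0 < Nat.card (G ⧸ N) := Nat.card_pos
      nlinarith
    by_cases hcore : pCore p G = ⊥
    swap
    · have := Cfsg.Agent.Lib.Cores.pCore_normal (G := G) p
      exact Reduce.of_core_ne_bot (hquot (pCore p G) hcore)
    by_contra hnle
    have hA0 : A ≠ ⊥ := by
      rintro rfl
      exact hnle bot_le
    have hnt : Nontrivial G := by
      obtain ⟨x, -, hx⟩ := (Subgroup.ne_bot_iff_exists_ne_one.1 hA0).elim fun x hx => (⟨x.1, x.2, fun h => hx (Subtype.ext h)⟩ : ∃ x : G, x ∈ A ∧ x ≠ 1)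
      exact ⟨x, 1, hx⟩
    obtain ⟨N, hN, hN0, hmin'⟩ := Cfsg.Agent.Lib.SubnormalJoin.exists_minimal_normal G
    by_cases hab : ∀ x ∈ N, ∀ y ∈ N, Commute x y
    · obtain ⟨r, hr, hNr, -⟩ := abelian_structure N hN0 hmin' hab
      have hrf : Fact r.Prime := ⟨hr⟩
      have hpr : p ≠ r := by
        rintro rfl
        have h1 := Cfsg.Agent.Lib.Cores.le_pCore (p := p) hN hNr
        rw [hcore, le_bot_iff] at h1
        exact hN0 h1
      exact hA0 (Reduce.abelian_case (V := N) (A := A) hp2 hpr hcore (fun x hx y hy => (hab x hx y hy).eq) hNr hA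
        (hquot N hN0) (fun v _ => hyp.hyp v))
    · by_cases hC : centralizer (N : Set G) = ⊥
      · have hcard : ∃ a ∈ A, orderOf a = p := by
          obtain ⟨k, hk⟩ := IsPGroup.iff_card.1 hA
          have hk0 : k ≠ 0 := by
            rintro rfl
            rw [pow_zero, Subgroup.card_eq_one] at hk
            exact hA0 hk
          obtain ⟨⟨a, haA⟩, ha⟩ := exists_prime_orderOf_dvd_card' (G := A) p (hk ▸ dvd_pow_self p hk0)
          refine ⟨a, haA, ?_⟩
          have h := Subgroup.orderOf_mk a haA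
          rw [← h]; exact ha
        obtain ⟨a, haA, ha⟩ := hcard
        have h1 : a ∈ (pCore p (G ⧸ N)).comap (QuotientGroup.mk' N) := hquot N hN0 ⟨a, haA, rfl⟩
        obtain ⟨x, hx⟩ := exists_av hp2 hrow hmin' hab hC ha h1
        exact hyp.not_av hA haA x hx
      · -- two minimal normal subgroups
        have hCn : (centralizer (N : Set G)).Normal := Subgroup.normal_centralizer
        have h1 := hquot N hN0
        have h2 := hquot (centralizer (N : Set G)) hC
        have hinf : ∀ x ∈ N, x ∈ centralizer (N : Set G) → x = 1 := by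
          intro x hx hxc
          have h3 : (N ⊓ centralizer (N : Set G)).Normal := inferInstance
          rcases hmin' _ h3 inf_le_left with h4 | h4
          · have h5 : x ∈ N ⊓ centralizer (N : Set G) := ⟨hx, hxc⟩
            rwa [h4, mem_bot] at h5
          · exfalso
            apply hab
            intro u hu v hv
            have h5 := (inf_eq_left.1 h4) hv
            exact mem_centralizer_iff.1 h5 u hu
        set M := (pCore p (G ⧸ N)).comap (QuotientGroup.mk' N) ⊓
          (pCore p (G ⧸ centralizer (N : Set G))).comap (QuotientGroup.mk' (centralizer (N : Set G))) with hM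
        have hn1 : (pCore p (G ⧸ N)).Normal := Cfsg.Agent.Lib.Cores.pCore_normal p
        have hn2 : (pCore p (G ⧸ centralizer (N : Set G))).Normal := Cfsg.Agent.Lib.Cores.pCore_normal p
        have hMn : M.Normal := inferInstance
        have hMp : IsPGroup p M := by
          rintro ⟨m, hm1, hm2⟩
          obtain ⟨k, hk⟩ := (Cfsg.Agent.Lib.Cores.pCore_isPGroup (G := G ⧸ N) p) ⟨QuotientGroup.mk' N m, hm1⟩
          obtain ⟨j, hj⟩ := (Cfsg.Agent.Lib.Cores.pCore_isPGroup (G := G ⧸ centralizer (N : Set G)) p)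
            ⟨QuotientGroup.mk' (centralizer (N : Set G)) m, hm2⟩
          have hk' : (QuotientGroup.mk' N m) ^ p ^ k = 1 := by simpa using congrArg Subtype.val hk
          have hj' : (QuotientGroup.mk' (centralizer (N : Set G)) m) ^ p ^ j = 1 := by
            simpa using congrArg Subtype.val hj
          rw [← map_pow] at hk' hj'
          have hk2 : m ^ p ^ k ∈ N := (QuotientGroup.eq_one_iff _).1 hk'
          have hj2 : m ^ p ^ j ∈ centralizer (N : Set G) := (QuotientGroup.eq_one_iff _).1 hj'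
          refine ⟨k + j, Subtype.ext ?_⟩
          show m ^ p ^ (k + j) = 1
          apply hinf
          · rw [pow_add, pow_mul]; exact pow_mem hk2 _
          · rw [pow_add, mul_comm, pow_mul]; exact pow_mem hj2 _
        have h3 := Cfsg.Agent.Lib.Cores.le_pCore (p := p) hMn hMp
        apply hnle
        refine le_trans (le_inf ?_ ?_) h3
        · rw [← map_le_iff_le_comap]; exact h1
        · rw [← map_le_iff_le_comap]; exact h2

end Cfsg.Agent.H566.Subn
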