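import Cfsg.Agent.H566.WeylST
import Cfsg.Agent.H566.PermSeven

/-!
# `{2, s}`-subgroups of odd index of `W(E6)`, `W(E7)`, `W(E8)` (helper566)

A `{2, s}`-subgroup of `W` of odd index, `s ≥ 5`, is a 2-group (S4312, exceptional rows).
-/

set_option autoImplicit false
set_option linter.unusedSectionVars false

namespace Cfsg.Agent.H566.WeylTwo

open Subgroup

section Abstract

variable {W V : Type*} [Group W] [AddCommGroup V] {B : V →ₗ[ℤ] V →ₗ[ℤ] ℤ} {ρ : W →* Module.End ℤ V}
  {n : ℕ} {t : Fin n → W} {β : Fin n → V}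

/-- `a` acts as the reflection in the root `α` -/
def IsR (B : V →ₗ[ℤ] V →ₗ[ℤ] ℤ) (ρ : W →* Module.End ℤ V) (a : W) (α : V) : Prop :=
  B α α = 2 ∧ ∀ v, ρ a v = v - B α v • α

theorem isR_conj (hinv : ∀ (w : W) (u v : V), B (ρ w u) (ρ w v) = B u v) {a : W} {α : V} (h : IsR B ρ a α) (w : W) :
    IsR B ρ (w * a * w⁻¹) (ρ w α) := by
  have h1 : ∀ v, ρ w (ρ w⁻¹ v) = v := fun v => by
    rw [← Module.End.mul_apply, ← map_mul, mul_inv_cancel, map_one, Module.End.one_apply]
  refine ⟨by rw [hinv]; exact h.1, fun v => ?_⟩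
  rw [map_mul, map_mul, Module.End.mul_apply, Module.End.mul_apply, h.2, map_sub, map_zsmul, h1]
  congr 2
  rw [← hinv w, h1]

/-- a lattice with an action and a set of orthogonal roots. -/
structure Dt (B : V →ₗ[ℤ] V →ₗ[ℤ] ℤ) (ρ : W →* Module.End ℤ V) (t : Fin n → W) (β : Fin n → V) : Prop where
  inj : Function.Injective ρ
  symm : ∀ u v, B u v = B v u
  pos : ∀ v, B v v ≤ 0 → v = 0
  even : ∀ v, 2 ∣ B v v
  inv : ∀ w u v, B (ρ w u) (ρ w v) = B u v
  orth : ∀ i j, i ≠ j → B (β i) (β j) = 0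
  act : ∀ i, IsR B ρ (t i) (β i)
  noroot : ∀ α, B α α = 2 → (∀ i, B α (β i) = 0) → False

namespace Dt

variable (D : Dt B ρ t β)

include D

theorem rho_inv (w : W) (v : V) : ρ w⁻¹ (ρ w v) = v := by
  rw [← Module.End.mul_apply, ← map_mul, inv_mul_cancel, map_one, Module.End.one_apply]

theorem rho_inv' (w : W) (v : V) : ρ w (ρ w⁻¹ v) = v := by
  rw [← Module.End.mul_apply, ← map_mul, mul_inv_cancel, map_one, Module.End.one_apply]

theorem conj {a : W} {α : V} (h : IsR B ρ a α) (w : W) : IsR B ρ (w * a * w⁻¹) (ρ w α) := by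
  refine ⟨by rw [D.inv]; exact h.1, fun v => ?_⟩
  rw [map_mul, map_mul, Module.End.mul_apply, Module.End.mul_apply, h.2, map_sub, map_zsmul, D.rho_inv']
  congr 2
  rw [← D.inv w, D.rho_inv']

theorem neg {a : W} {α : V} (h : IsR B ρ a α) : IsR B ρ a (-α) := by
  refine ⟨by simpa using h.1, fun v => ?_⟩
  rw [h.2, map_neg, LinearMap.neg_apply, neg_smul_neg]

theorem uniq {a b : W} {α α' : V} (ha : IsR B ρ a α) (hb : IsR B ρ b α') (h : α = α' ∨ α = -α') : a = b := by
  apply D.inj
  ext v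
  rcases h with rfl | rfl
  · rw [ha.2, hb.2]
  · rw [ha.2, (D.neg hb).2]

theorem sq {a : W} {α : V} (ha : IsR B ρ a α) : a * a = 1 := by
  apply D.inj
  refine LinearMap.ext fun v => ?_
  rw [map_mul, Module.End.mul_apply, ha.2, ha.2, map_one, Module.End.one_apply, map_sub, map_smul, ha.1, smul_eq_mul]
  module

theorem self {a : W} {α : V} (ha : IsR B ρ a α) : ρ a α = -α := by
  rw [ha.2, ha.1]; module

/-- `(α, β) = ±1`: the product has order 3 -/
theorem order_three {a b : W} {α α' : V} (ha : IsR B ρ a α) (hb : IsR B ρ b α') (hc : B α α' * B α α' = 1) :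
    orderOf (a * b) = 3 := by
  have ha2 := D.sq ha
  have hb2 := D.sq hb
  have hai : a⁻¹ = a := inv_eq_of_mul_eq_one_left ha2
  have hbi : b⁻¹ = b := inv_eq_of_mul_eq_one_left hb2
  have h1 := D.conj hb a
  have h2 := D.conj ha b
  have h3 : ρ a α' = α' - B α α' • α := ha.2 α'
  have h4 : ρ b α = α - B α α' • α' := by rw [hb.2, D.symm α' α]
  have h5 : a * b * a⁻¹ = b * a * b⁻¹ := by
    apply D.uniq h1 h2
    rw [h3, h4]
    have hc' : B α α' = 1 ∨ B α α' = -1 := by
      exact mul_self_eq_one_iff.1 hc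
    rcases hc' with h | h
    · right; rw [h]; module
    · left; rw [h]; module
  rw [hai, hbi] at h5
  refine orderOf_eq_prime ?_ ?_
  · calc (a * b) ^ 3 = (a * b * a) * (b * a * b) := by
          rw [pow_succ, pow_two]; simp only [mul_assoc]
      _ = (b * a * b) * (b * a * b) := by rw [h5]
      _ = b * a * (b * b) * a * b := by group
      _ = b * (a * a) * b := by rw [hb2]; group
      _ = 1 := by rw [ha2, mul_one, hb2]
  · intro h
    have h6 : a = b := by rw [← hbi]; exact eq_inv_of_mul_eq_one_left h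
    have h7 := D.self hb
    rw [← h6, h3] at h7
    have h8 : (2 : ℤ) • α' = B α α' • α := by
      have h9 : α' + α' = B α α' • α := by
        have e1 : α' + α' = (α' - B α α' • α) + α' + B α α' • α := by abel
        rw [e1, h7]; abel
      rw [two_smul]; exact h9
    have h9 := congrArg (fun v => B v α') h8
    simp only [map_smul, LinearMap.smul_apply, smul_eq_mul, hb.1] at h9
    rw [hc] at h9
    omega

theorem abs_le {α α' : V} (h1 : B α α = 2) (h2 : B α' α' = 2) :
    B α α' = 0 ∨ B α α' * B α α' = 1 ∨ (α = α' ∨ α = -α') := by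
  have h3 : B (α - α') (α - α') = 4 - 2 * B α α' := by
    simp only [map_sub, LinearMap.sub_apply, h1, h2, D.symm α' α]; ring
  have h4 : B (α + α') (α + α') = 4 + 2 * B α α' := by
    simp only [map_add, LinearMap.add_apply, h1, h2, D.symm α' α]; ring
  by_cases h5 : 2 ≤ B α α'
  · right; right; left
    exact sub_eq_zero.1 (D.pos _ (by rw [h3]; omega))
  by_cases h6 : B α α' ≤ -2
  · right; right; right
    exact eq_neg_of_add_eq_zero_left (D.pos _ (by rw [h4]; omega))
  have h7 : B α α' = 0 ∨ B α α' = 1 ∨ B α α' = -1 := by omega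
  rcases h7 with h | h | h
  · exact Or.inl h
  · right; left; rw [h]; norm_num
  · right; left; rw [h]; norm_num

variable {P : Subgroup W}

theorem frame (ht : ∀ i, t i ∈ P) (h3 : ¬ 3 ∣ Nat.card P) {x : W} (hx : x ∈ P) (i : Fin n) :
    ∃ j, ρ x (β i) = β j ∨ ρ x (β i) = - β j := by
  by_contra hcon
  push Not at hcon
  have hR := D.conj (D.act i) x
  apply D.noroot _ hR.1
  intro j
  rcases D.abs_le hR.1 (D.act j).1 with h | h | h
  · exact h
  · exfalso
    apply h3
    have h4 := D.order_three hR (D.act j) h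
    have h5 : x * t i * x⁻¹ * t j ∈ P := mul_mem (mul_mem (mul_mem hx (ht i)) (inv_mem hx)) (ht j)
    have h6 := orderOf_dvd_natCard (⟨_, h5⟩ : P)
    rwa [← Subgroup.orderOf_coe, h4] at h6
  · exact absurd h (by
      rintro (h | h)
      · exact (hcon j).1 h
      · exact (hcon j).2 h)

theorem ne_zero (i : Fin n) : β i ≠ 0 := by
  intro h
  have := (D.act i).1
  rw [h, map_zero] at this
  norm_num at this

theorem idx {j k : Fin n} (h : β j = β k ∨ β j = -β k) : j = k := by
  by_contra hne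
  have h1 := D.orth j k hne
  have h2 := (D.act k).1
  rcases h with h | h
  · rw [h] at h1; omega
  · rw [h, map_neg, LinearMap.neg_apply] at h1; omega

/-- the action on the frame -/
theorem exists_hom (ht : ∀ i, t i ∈ P) (h3 : ¬ 3 ∣ Nat.card P) :
    ∃ φ : P →* Equiv.Perm (Fin n), ∀ (x : P) i, ρ x (β i) = β (φ x i) ∨ ρ x (β i) = -β (φ x i) := by
  have h0 : ∀ x : P, ∀ i, ∃ j, ρ x (β i) = β j ∨ ρ x (β i) = - β j := fun x i => D.frame ht h3 x.2 i
  choose f hf using h0
  have h1 : ∀ i, f 1 i = i := by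
    intro i
    apply D.idx
    have h1 := hf 1 i
    rw [coe_one, map_one, Module.End.one_apply] at h1
    rcases h1 with h1 | h1
    · exact Or.inl h1.symm
    · right; rw [h1, neg_neg]
  have h2 : ∀ x y i, f (x * y) i = f x (f y i) := by
    intro x y i
    apply D.idx
    have h1 := hf y i
    have h2 := hf x (f y i)
    have h4 := hf (x * y) i
    rw [coe_mul, map_mul, Module.End.mul_apply] at h4
    generalize f (x * y) i = m at *
    generalize f x (f y i) = k at *
    rcases h1 with h1 | h1 <;> rcases h2 with h2 | h2 <;> rw [h1] at h4 <;> rcases h4 with h4 | h4 <;>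
      simp only [map_neg, h2, neg_neg, neg_inj] at h4
    · exact Or.inl h4.symm
    · right; rw [h4, neg_neg]
    · exact Or.inr h4.symm
    · left; exact h4.symm
    · right; exact h4.symm
    · left; exact h4.symm
    · left; exact h4.symm
    · right; rw [h4, neg_neg]
  refine ⟨MonoidHom.mk' (fun x => ⟨f x, f x⁻¹, fun i => ?_, fun i => ?_⟩) ?_, hf⟩
  · rw [← h2, inv_mul_cancel, h1]
  · rw [← h2, mul_inv_cancel, h1]
  · intro x y
    ext i
    exact congrArg Fin.val (h2 x y i)

theorem comm (i j : Fin n) : t i * t j = t j * t i := by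
  by_cases hij : i = j
  · rw [hij]
  have h1 := D.conj (D.act j) (t i)
  have h2 := D.uniq h1 (D.act j) (by
    left
    rw [(D.act i).2, D.orth i j hij, zero_smul, sub_zero])
  exact mul_inv_eq_iff_eq_mul.1 h2

theorem isPGroup : IsPGroup 2 (closure (Set.range t)) := by
  have hc : IsMulCommutative (closure (Set.range t)) := isMulCommutative_closure (by
    rintro _ ⟨i, rfl⟩ _ ⟨j, rfl⟩
    exact D.comm i j)
  have key : ∀ x ∈ closure (Set.range t), x * x = 1 := by
    intro x hx
    induction hx using closure_induction with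
    | mem x hx =>
      obtain ⟨i, rfl⟩ := hx
      exact D.sq (D.act i)
    | one => rw [one_mul]
    | mul x y hx hy h1 h2 =>
      have h3 : x * y = y * x := congrArg Subtype.val (hc.is_comm.comm (⟨x, hx⟩ : closure (Set.range t)) ⟨y, hy⟩)
      calc x * y * (x * y) = (x * y) * (y * x) := by rw [← h3]
        _ = x * (y * y) * x := by group
        _ = 1 := by rw [h2, mul_one, h1]
    | inv x hx h1 => rw [← mul_inv_rev, h1, inv_one]
  intro x
  refine ⟨1, Subtype.ext ?_⟩
  show (x : W) ^ 2 ^ 1 = 1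
  rw [pow_one, pow_two]
  exact key x x.2

/-- **reduction** to the subgroups containing the reflections `t i` -/
theorem of_core [Finite W] {s N : ℕ} (hcore : ∀ P : Subgroup W, (∀ i, t i ∈ P) →
    (∀ q : ℕ, q.Prime → q ∣ Nat.card P → q = 2 ∨ q = s) → 2 ^ N ∣ Nat.card P → ¬ s ∣ Nat.card P)
    (hW : 2 ^ N ∣ Nat.card W) (P : Subgroup W) (hP : ∀ q : ℕ, q.Prime → q ∣ Nat.card P → q = 2 ∨ q = s)
    (hodd : ¬ 2 ∣ P.index) : ¬ s ∣ Nat.card P := by
  have hp : Fact (Nat.Prime 2) := ⟨Nat.prime_two⟩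
  -- a Sylow 2-subgroup in `P`
  obtain ⟨S₀⟩ : Nonempty (Sylow 2 P) := inferInstance
  have hci := P.card_mul_index
  have hfac : (Nat.card W).factorization 2 = (Nat.card P).factorization 2 := by
    rw [← hci, Nat.factorization_mul Nat.card_pos.ne' index_ne_zero_of_finite]
    simp [Nat.factorization_eq_zero_of_not_dvd hodd]
  have hcardS : Nat.card ((S₀ : Subgroup P).map P.subtype) = 2 ^ (Nat.card W).factorization 2 := by
    rw [hfac, ← S₀.card_eq_multiplicity]
    exact Nat.card_congr ((S₀ : Subgroup P).equivMapOfInjective _ P.subtype_injective).symm.toEquiv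
  let S : Sylow 2 W := Sylow.ofCard _ hcardS
  have hSP : (S : Subgroup W) ≤ P := by
    rw [Sylow.coe_ofCard]
    exact map_subtype_le _
  obtain ⟨T, hT⟩ := D.isPGroup.exists_le_sylow
  obtain ⟨g, hg⟩ := MulAction.exists_smul_eq W S T
  -- the conjugate of `P`
  have hcard : Nat.card (P.map (MulAut.conj g).toMonoidHom) = Nat.card P :=
    Nat.card_congr (P.equivMapOfInjective _ (MulAut.conj g).injective).symm.toEquiv
  rw [← hcard]
  apply hcore
  · intro i
    have h1 : t i ∈ (T : Subgroup W) := hT (subset_closure ⟨i, rfl⟩)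
    rw [← hg] at h1
    obtain ⟨y, hy, hyt⟩ := h1
    exact ⟨y, hSP hy, hyt⟩
  · intro q hq hqd
    rw [hcard] at hqd
    exact hP q hq hqd
  · rw [hcard]
    have h1 : Nat.Coprime (2 ^ N) P.index := (Nat.Prime.coprime_iff_not_dvd Nat.prime_two).2 hodd |>.pow_left N
    rw [← hci] at hW
    exact h1.dvd_of_dvd_mul_right hW

/-! ### The frames spanning the space -/

theorem fix_one (hsp : ∀ v, (∀ i, B v (β i) = 0) → v = 0) {x : W} (h : ∀ i, ρ x (β i) = β i) : x = 1 := by
  apply D.inj
  rw [map_one]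
  refine LinearMap.ext fun v => ?_
  rw [Module.End.one_apply]
  apply sub_eq_zero.1
  apply hsp
  intro i
  rw [map_sub, LinearMap.sub_apply]
  conv_lhs => enter [1]; rw [← h i]
  rw [D.inv, sub_self]

theorem odd_fix {x : W} {s : ℕ} (hs : Odd s) (hx : x ^ s = 1) {i : Fin n} (h : ρ x (β i) = β i ∨ ρ x (β i) = -β i) :
    ρ x (β i) = β i := by
  rcases h with h | h
  · exact h
  exfalso
  have h1 : ∀ k : ℕ, ρ (x ^ (2 * k)) (β i) = β i := by
    intro k
    induction k with
    | zero => rw [mul_zero, pow_zero, map_one, Module.End.one_apply]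
    | succ k ih =>
      rw [mul_add, mul_one, pow_add, map_mul, Module.End.mul_apply, pow_two, map_mul, Module.End.mul_apply, h,
        map_neg, h, neg_neg, ih]
  obtain ⟨k, hk⟩ := hs
  have h2 : ρ (x ^ s) (β i) = -β i := by
    rw [hk, pow_succ, map_mul, Module.End.mul_apply, h, map_neg, h1]
  rw [hx, map_one, Module.End.one_apply] at h2
  have h3 := (D.act i).1
  have h4 : B (β i) (β i) = - B (β i) (β i) := by
    conv_lhs => enter [2]; rw [h2]
    rw [map_neg]
  omega

theorem two_smul_eq (hsp : ∀ v, (∀ i, B v (β i) = 0) → v = 0) (v : V) :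
    (2 : ℤ) • v = ∑ i, B v (β i) • β i := by
  apply sub_eq_zero.1
  apply hsp
  intro j
  rw [map_sub, LinearMap.sub_apply, map_sum, LinearMap.sum_apply, Finset.sum_eq_single j]
  · simp only [map_smul, LinearMap.smul_apply, smul_eq_mul, (D.act j).1]; ring
  · intro i _ hij
    simp only [map_smul, LinearMap.smul_apply, smul_eq_mul, D.orth i j hij, mul_zero]
  · intro h; exact absurd (Finset.mem_univ _) h

theorem sum_sq (hsp : ∀ v, (∀ i, B v (β i) = 0) → v = 0) (v : V) :
    ∑ i, B v (β i) * B v (β i) = 2 * B v v := by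
  have h1 := congrArg (B v) (D.two_smul_eq hsp v)
  rw [map_sum] at h1
  simp only [map_smul, smul_eq_mul] at h1
  exact h1.symm

theorem core_seven [Finite W] (hsp : ∀ v, (∀ i, B v (β i) = 0) → v = 0) {N : ℕ}
    (hn : (n = 7 ∧ N = 10) ∨ (n = 8 ∧ N = 14)) (P : Subgroup W) (ht : ∀ i, t i ∈ P)
    (hP : ∀ q : ℕ, q.Prime → q ∣ Nat.card P → q = 2 ∨ q = 7) (hN : 2 ^ N ∣ Nat.card P) : ¬ 7 ∣ Nat.card P := by
  intro h7
  have hp2 : Fact (Nat.Prime 2) := ⟨Nat.prime_two⟩
  have h3 : ¬ 3 ∣ Nat.card P := fun h => by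
    have := hP 3 Nat.prime_three h
    omega
  obtain ⟨φ, hφ⟩ := D.exists_hom ht h3
  -- the kernel
  have hker : ∀ x : P, x ∈ φ.ker → ∀ i, ρ x (β i) = β i ∨ ρ x (β i) = -β i := by
    intro x hx i
    have h1 := hφ x i
    rw [MonoidHom.mem_ker] at hx
    rwa [hx, Equiv.Perm.one_apply] at h1
  have hKp : IsPGroup 2 φ.ker := by
    intro x
    refine ⟨1, ?_⟩
    rw [pow_one, pow_two]
    apply Subtype.ext
    apply Subtype.ext
    show ((x : P) : W) * ((x : P) : W) = 1
    apply D.fix_one hsp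
    intro i
    rw [map_mul, Module.End.mul_apply]
    rcases hker x x.2 i with h | h
    · rw [h, h]
    · rw [h, map_neg, h, neg_neg]
  obtain ⟨k, hk⟩ := hKp.exists_card_eq
  have hkn : k ≤ n := by
    classical
    have h1 : Nat.card φ.ker ≤ Nat.card (Fin n → Bool) := by
      apply Nat.card_le_card_of_injective (fun (x : φ.ker) i => decide (ρ ((x : P) : W) (β i) = β i))
      intro x y hxy
      apply Subtype.ext
      apply Subtype.ext
      have h2 : (((y : P) : W))⁻¹ * ((x : P) : W) = 1 := by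
        apply D.fix_one hsp
        intro i
        have h4 : ρ ((x : P) : W) (β i) = ρ ((y : P) : W) (β i) := by
          have h5 := congrFun hxy i
          simp only [decide_eq_decide] at h5
          rcases hker x x.2 i with h | h
          · rw [h, (h5.1 h)]
          · rcases hker y y.2 i with h' | h'
            · rw [h5.2 h', h']
            · rw [h, h']
        rw [map_mul, Module.End.mul_apply, h4, D.rho_inv]
      rw [inv_mul_eq_one] at h2
      exact h2.symm
    rw [hk, Nat.card_fun, Nat.card_eq_fintype_card, Fintype.card_bool, Nat.card_eq_fintype_card,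
      Fintype.card_fin] at h1
    exact (Nat.pow_le_pow_iff_right (by norm_num)).1 h1
  have hcard : Nat.card P = 2 ^ k * Nat.card φ.range := by
    rw [← hk, ← φ.ker.card_mul_index, Subgroup.index_ker]
  have h7r : 7 ∣ Nat.card φ.range := by
    rw [hcard] at h7
    exact (Nat.Coprime.dvd_of_dvd_mul_left (Nat.Coprime.pow_right k (by norm_num)) h7)
  have hPr : ∀ q : ℕ, q.Prime → q ∣ Nat.card φ.range → q = 2 ∨ q = 7 := fun q hq hqd =>
    hP q hq (by rw [hcard]; exact hqd.mul_left _)
  have hfin : Nat.card (Fin n) = n := by rw [Nat.card_eq_fintype_card, Fintype.card_fin]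
  have hNk : 2 ^ (N - k) ∣ Nat.card φ.range := by
    rw [hcard] at hN
    have h1 : k ≤ N := by omega
    have h2 : 2 ^ N = 2 ^ k * 2 ^ (N - k) := by rw [← pow_add]; congr 1; omega
    rw [h2] at hN
    exact Nat.dvd_of_mul_dvd_mul_left (by positivity) hN
  rcases hn with ⟨rfl, rfl⟩ | ⟨rfl, rfl⟩
  · apply PermSeven.seven (G := φ.range) (X := Fin 7) hfin hPr h7r
    refine Dvd.dvd.trans ?_ hNk
    rw [show (4 : ℕ) = 2 ^ 2 by norm_num]
    exact pow_dvd_pow 2 (by omega)
  · apply PermSeven.eight (G := φ.range) (X := Fin 8) hfin hPr h7r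
    refine Dvd.dvd.trans ?_ hNk
    rw [show (32 : ℕ) = 2 ^ 5 by norm_num]
    exact pow_dvd_pow 2 (by omega)

end Dt

/-- the number of `i` with `a i` -/
def cnt (a : Fin n → Bool) : ℕ := (Finset.univ.filter fun i => a i = true).card

/-- the combinatorial condition on a permutation of order five -/
def Comb (σ : Equiv.Perm (Fin n)) : Prop :=
  ∀ a : Fin n → Bool, cnt a = 4 → 4 ∣ cnt (fun i => xor (a i) (a (σ i))) →
    4 ∣ cnt (fun i => xor (a i) (a (σ (σ i)))) → False

theorem cnt_comp (a : Fin n → Bool) (c : Equiv.Perm (Fin n)) : cnt (fun i => a (c i)) = cnt a := by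
  unfold cnt
  apply Finset.card_bij (fun i _ => c i)
  · intro i hi
    simpa using hi
  · intro i _ j _ h
    exact c.injective h
  · intro j hj
    refine ⟨c.symm j, ?_, ?_⟩
    · simpa using hj
    · simp

theorem Comb.conj {σ : Equiv.Perm (Fin n)} (h : Comb σ) (c : Equiv.Perm (Fin n)) : Comb (c * σ * c⁻¹) := by
  intro a h1 h2 h3
  apply h (fun i => a (c i))
  · rw [cnt_comp]; exact h1
  · have := cnt_comp (fun i => xor (a i) (a ((c * σ * c⁻¹) i))) c
    rw [← this] at h2
    simpa [Equiv.Perm.mul_apply] using h2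
  · have := cnt_comp (fun i => xor (a i) (a ((c * σ * c⁻¹) ((c * σ * c⁻¹) i)))) c
    rw [← this] at h3
    simpa [Equiv.Perm.mul_apply] using h3

theorem cycleType_five (hn : n < 10) {σ : Equiv.Perm (Fin n)} (h5 : σ ^ 5 = 1) (h1 : σ ≠ 1) :
    σ.cycleType = {5} := by
  have hp : Fact (Nat.Prime 5) := ⟨by norm_num⟩
  have ho : orderOf σ = 5 := orderOf_eq_prime h5 h1
  obtain ⟨k, hk⟩ := Equiv.Perm.cycleType_prime_order (σ := σ) (by rw [ho]; norm_num)
  have h2 := σ.sum_cycleType
  have h3 : σ.support.card ≤ n := by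
    have := Finset.card_le_univ σ.support
    rwa [Fintype.card_fin] at this
  rw [hk, Multiset.sum_replicate, ho, smul_eq_mul] at h2
  have h4 : k = 0 := by omega
  rw [hk, ho, h4]
  rfl

/-- the standard 5-cycle -/
def tau8 : Equiv.Perm (Fin 8) := List.formPerm [0, 1, 2, 3, 4]
def tau7 : Equiv.Perm (Fin 7) := List.formPerm [0, 1, 2, 3, 4]

theorem comb_tau8 : Comb tau8 := by
  unfold Comb
  decide +kernel

theorem comb_tau7 : Comb tau7 := by
  unfold Comb
  decide +kernel

theorem comb8 {σ : Equiv.Perm (Fin 8)} (h5 : σ ^ 5 = 1) (h1 : σ ≠ 1) : Comb σ := by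
  have h2 : IsConj tau8 σ := by
    rw [Equiv.Perm.isConj_iff_cycleType_eq, cycleType_five (by norm_num) h5 h1,
      cycleType_five (by norm_num) (σ := tau8) (by decide +kernel) (by decide +kernel)]
  obtain ⟨c, hc⟩ := isConj_iff.1 h2
  rw [← hc]
  exact comb_tau8.conj c

theorem comb7 {σ : Equiv.Perm (Fin 7)} (h5 : σ ^ 5 = 1) (h1 : σ ≠ 1) : Comb σ := by
  have h2 : IsConj tau7 σ := by
    rw [Equiv.Perm.isConj_iff_cycleType_eq, cycleType_five (by norm_num) h5 h1,
      cycleType_five (by norm_num) (σ := tau7) (by decide +kernel) (by decide +kernel)]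
  obtain ⟨c, hc⟩ := isConj_iff.1 h2
  rw [← hc]
  exact comb_tau7.conj c


/-- the parities of the products with the frame -/
def par (B : V →ₗ[ℤ] V →ₗ[ℤ] ℤ) (β : Fin n → V) (v : V) (i : Fin n) : Bool := decide (B v (β i) % 2 = 1)

theorem par_add (v w : V) (i : Fin n) : par B β (v + w) i = xor (par B β v i) (par B β w i) := by
  unfold par
  rw [map_add, LinearMap.add_apply]
  rcases Int.emod_two_eq_zero_or_one (B v (β i)) with h1 | h1 <;>
    rcases Int.emod_two_eq_zero_or_one (B w (β i)) with h2 | h2 <;>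
    rw [Int.add_emod, h1, h2] <;> rfl

theorem par_neg {v w : V} {i j : Fin n} (h : B v (β i) = B w (β j) ∨ B v (β i) = -B w (β j)) :
    par B β v i = par B β w j := by
  unfold par
  congr 1
  rcases h with h | h
  · rw [h]
  · rw [h]
    apply propext
    omega

namespace Dt

variable (D : Dt B ρ t β)

include D

theorem four_dvd_cnt (hsp : ∀ v, (∀ i, B v (β i) = 0) → v = 0) (v : V) : 4 ∣ cnt (par B β v) := by
  have h1 := D.sum_sq hsp v
  obtain ⟨m, hm⟩ := D.even v
  have h2 : ∀ i, (4 : ℤ) ∣ B v (β i) * B v (β i) - (if par B β v i = true then 1 else 0) := by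
    intro i
    unfold par
    rcases Int.emod_two_eq_zero_or_one (B v (β i)) with h | h
    · rw [if_neg (by rw [decide_eq_true_eq]; omega)]
      obtain ⟨k, hk⟩ : ∃ k, B v (β i) = 2 * k := ⟨B v (β i) / 2, by omega⟩
      exact ⟨k * k, by rw [hk]; ring⟩
    · rw [if_pos (by rw [decide_eq_true_eq]; exact h)]
      obtain ⟨k, hk⟩ : ∃ k, B v (β i) = 2 * k + 1 := ⟨B v (β i) / 2, by omega⟩
      exact ⟨k * k + k, by rw [hk]; ring⟩
  have h3 : (4 : ℤ) ∣ ∑ i, (B v (β i) * B v (β i) - (if par B β v i = true then 1 else 0)) :=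
    Finset.dvd_sum fun i _ => h2 i
  rw [Finset.sum_sub_distrib, h1, hm, Finset.sum_ite, Finset.sum_const_zero, add_zero, Finset.sum_const] at h3
  have h4 : (4 : ℤ) ∣ (cnt (par B β v) : ℤ) := by
    have h5 : ((Finset.univ.filter fun i => par B β v i = true).card • (1 : ℤ)) = (cnt (par B β v) : ℤ) := by
      rw [nsmul_eq_mul, mul_one]; rfl
    rw [h5] at h3
    have h6 : (4 : ℤ) ∣ 2 * (2 * m) := ⟨m, by ring⟩
    exact (dvd_sub_right h6).1 h3
  exact_mod_cast h4

theorem core_five [Finite W] (hsp : ∀ v, (∀ i, B v (β i) = 0) → v = 0)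
    (hcomb : ∀ σ : Equiv.Perm (Fin n), σ ^ 5 = 1 → σ ≠ 1 → Comb σ) {v₀ : V} (hv₀ : cnt (par B β v₀) = 4)
    (P : Subgroup W) (ht : ∀ i, t i ∈ P) (hP : ∀ q : ℕ, q.Prime → q ∣ Nat.card P → q = 2 ∨ q = 5) :
    ¬ 5 ∣ Nat.card P := by
  intro h5
  have hp : Fact (Nat.Prime 5) := ⟨by norm_num⟩
  have h3 : ¬ 3 ∣ Nat.card P := fun h => by
    have := hP 3 Nat.prime_three h
    omega
  obtain ⟨φ, hφ⟩ := D.exists_hom ht h3
  obtain ⟨x, hx⟩ := exists_prime_orderOf_dvd_card' (G := P) 5 h5
  have hx5 : x ^ 5 = 1 := by rw [← hx, pow_orderOf_eq_one]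
  have hx5' : (x : W) ^ 5 = 1 := by rw [← coe_pow, hx5, coe_one]
  refine hcomb (φ x) (by rw [← map_pow, hx5, map_one]) ?_ (par B β v₀) hv₀ ?_ ?_
  · intro h
    have h1 : (x : W) = 1 := by
      apply D.fix_one hsp
      intro i
      apply D.odd_fix (by decide) hx5'
      have := hφ x i
      rwa [h, Equiv.Perm.one_apply] at this
    have h2 : x = 1 := Subtype.ext h1
    rw [h2, orderOf_one] at hx
    norm_num at hx
  all_goals
    have key : ∀ (v : V) i, par B β (ρ (x : W)⁻¹ v) i = par B β v (φ x i) := by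
      intro v i
      apply par_neg
      have h1 : B (ρ (x : W)⁻¹ v) (β i) = B v (ρ (x : W) (β i)) := by
        rw [← D.inv (x : W), D.rho_inv']
      rw [h1]
      rcases hφ x i with h | h
      · left; rw [h]
      · right; rw [h, map_neg]
  · have h1 : (fun i => xor (par B β v₀ i) (par B β v₀ (φ x i))) = par B β (v₀ + ρ (x : W)⁻¹ v₀) := by
      funext i
      rw [par_add, key]
    rw [h1]
    exact D.four_dvd_cnt hsp _
  · have h1 : (fun i => xor (par B β v₀ i) (par B β v₀ (φ x (φ x i)))) =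
        par B β (v₀ + ρ (x : W)⁻¹ (ρ (x : W)⁻¹ v₀)) := by
      funext i
      rw [par_add, key, key]
    rw [h1]
    exact D.four_dvd_cnt hsp _

end Dt

/-- **`E6`** : four orthogonal roots -/
theorem Dt.core_four [Finite W] {r : ℕ} {B : (Fin r → ℤ) →ₗ[ℤ] (Fin r → ℤ) →ₗ[ℤ] ℤ}
    {ρ : W →* Module.End ℤ (Fin r → ℤ)} {t : Fin 4 → W} {β : Fin 4 → (Fin r → ℤ)} (D : Dt B ρ t β)
    (hm : ∀ w : Fin r → ℤ, (∀ i, B w (β i) = 0) → ∃ (c : Fin 4 → ℤ) (q : Fin r → ℤ),
      w = ∑ i, c i • β i + (2 : ℤ) • q)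
    (P : Subgroup W) (ht : ∀ i, t i ∈ P) (hP : ∀ q : ℕ, q.Prime → q ∣ Nat.card P → q = 2 ∨ q = 5) :
    ¬ 5 ∣ Nat.card P := by
  intro h5
  have hp : Fact (Nat.Prime 5) := ⟨by norm_num⟩
  have h3 : ¬ 3 ∣ Nat.card P := fun h => by
    have := hP 3 Nat.prime_three h
    omega
  obtain ⟨φ, hφ⟩ := D.exists_hom ht h3
  obtain ⟨x, hx⟩ := exists_prime_orderOf_dvd_card' (G := P) 5 h5
  have hx5 : x ^ 5 = 1 := by rw [← hx, pow_orderOf_eq_one]
  have hx5' : (x : W) ^ 5 = 1 := by rw [← coe_pow, hx5, coe_one]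
  have hφ1 : φ x = 1 := by
    have h1 : orderOf (φ x) ∣ 5 := by rw [orderOf_dvd_iff_pow_eq_one, ← map_pow, hx5, map_one]
    have h2 : orderOf (φ x) ∣ Nat.card (Equiv.Perm (Fin 4)) := orderOf_dvd_natCard _
    rw [Nat.card_perm, Nat.card_eq_fintype_card, Fintype.card_fin] at h2
    have h4 : orderOf (φ x) ∣ Nat.gcd 5 (Nat.factorial 4) := Nat.dvd_gcd h1 h2
    have h6 : Nat.gcd 5 (Nat.factorial 4) = 1 := by decide
    rw [h6] at h4
    exact orderOf_eq_one_iff.1 (Nat.dvd_one.1 h4)
  have hfix : ∀ i, ρ (x : W) (β i) = β i := by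
    intro i
    apply D.odd_fix (by decide) hx5'
    have := hφ x i
    rwa [hφ1, Equiv.Perm.one_apply] at this
  -- `(x - 1)² ≡ 0` modulo 2
  have key : ∀ v : Fin r → ℤ, ∃ q : Fin r → ℤ, ρ (x * x : W) v = v + (2 : ℤ) • q := by
    intro v
    obtain ⟨c, q, hq⟩ := hm (ρ (x : W) v - v) (fun i => by
      rw [map_sub, LinearMap.sub_apply]
      conv_lhs => enter [1]; rw [← hfix i]
      rw [D.inv, sub_self])
    have h1 : ρ (x : W) (ρ (x : W) v - v) = ρ (x : W) v - v + (2 : ℤ) • (ρ (x : W) q - q) := by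
      rw [hq, map_add, map_sum, map_smul]
      have h2 : ∀ i, ρ (x : W) (c i • β i) = c i • β i := fun i => by rw [map_smul, hfix]
      simp only [h2]
      rw [smul_sub]; abel
    refine ⟨ρ (x : W) v - v + (ρ (x : W) q - q), ?_⟩
    rw [map_sub] at h1
    rw [map_mul, Module.End.mul_apply]
    have h4 : ρ (x : W) (ρ (x : W) v) = ρ (x : W) v - v + (2 : ℤ) • (ρ (x : W) q - q) + ρ (x : W) v := by
      rw [← h1]; abel
    rw [h4, smul_add, two_smul ℤ (ρ (x : W) v - v)]
    abel
  have h6 : (LinearMap.toMatrixAlgEquiv' (ρ (x * x : W)) : Matrix (Fin r) (Fin r) ℤ) = 1 := by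
    apply PairW.minkowski (l := 2) (p := 5) Nat.prime_two (by norm_num) (by norm_num)
    · rw [← map_pow, ← map_pow, ← pow_two, ← pow_mul, mul_comm, pow_mul, hx5', one_pow, map_one, map_one]
    · intro i j
      obtain ⟨q, hq⟩ := key (Pi.single j 1)
      refine ⟨q i, ?_⟩
      rw [Matrix.sub_apply, LinearMap.toMatrixAlgEquiv'_apply]
      have h7 : (fun j' => if j' = j then (1 : ℤ) else 0) = Pi.single j 1 := by
        funext k
        rw [Pi.single_apply]
      first
        | rw [h7, hq]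
        | rw [hq]
      rw [Pi.add_apply, Pi.smul_apply, smul_eq_mul, Matrix.one_apply, Pi.single_apply]
      push_cast
      ring
  have h8 : ρ (x * x : W) = 1 := by
    rw [← map_one (LinearMap.toMatrixAlgEquiv' (R := ℤ) (n := Fin r))] at h6
    exact (LinearMap.toMatrixAlgEquiv' (R := ℤ) (n := Fin r)).injective h6
  have h9 : (x : W) * x = 1 := D.inj (h8.trans (map_one ρ).symm)
  have h10 : x = 1 := by
    apply Subtype.ext
    have : (x : W) ^ 5 = (x * x) * (x * x) * x := by
      simp only [pow_succ, pow_zero, one_mul, mul_assoc]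
    rw [hx5', h9, one_mul, one_mul] at this
    exact this.symm
  rw [h10, orderOf_one] at hx
  norm_num at hx

end Abstract

section Cartan

open Cfsg.Agent.ChevalleyStructure.CoxeterGeom

variable {l : ℕ}

/-- the form -/
noncomputable def bf (A : Fin l → Fin l → ℤ) : (Fin l → ℤ) →ₗ[ℤ] (Fin l → ℤ) →ₗ[ℤ] ℤ :=
  Matrix.toBilin' (Matrix.of A)

theorem bf_apply (A : Fin l → Fin l → ℤ) (u v : Fin l → ℤ) : bf A u v = ∑ i, ∑ j, u i * A i j * v j :=
  Matrix.toBilin'_apply _ _ _

theorem bf_symm {A : Fin l → Fin l → ℤ} (hA : ∀ i j, A i j = A j i) (u v : Fin l → ℤ) : bf A u v = bf A v u := by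
  rw [bf_apply, bf_apply, Finset.sum_comm]
  refine Finset.sum_congr rfl fun i _ => Finset.sum_congr rfl fun j _ => ?_
  rw [hA j i]; ring

theorem bf_single (A : Fin l → Fin l → ℤ) (i : Fin l) (v : Fin l → ℤ) : bf A (Pi.single i 1) v = pairing A i v := by
  rw [bf_apply, pairing, Finset.sum_eq_single i]
  · refine Finset.sum_congr rfl fun j _ => ?_
    rw [Pi.single_eq_same, one_mul]
  · intro b _ hb
    apply Finset.sum_eq_zero
    intro j _
    rw [Pi.single_eq_of_ne hb, zero_mul, zero_mul]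
  · intro h; exact absurd (Finset.mem_univ _) h

theorem refl_eq (A : Fin l → Fin l → ℤ) (i : Fin l) (v : Fin l → ℤ) :
    refl A i v = v - bf A (Pi.single i 1) v • Pi.single i 1 := by
  rw [refl_apply, bf_single, single_eq_smul]

variable {M : CoxeterMatrix (Fin l)} {A : Fin l → Fin l → ℤ} (hA : IsCartan M A) (hs : ∀ i j, A i j = A j i)

include hs hA in
theorem bf_refl (i : Fin l) (u v : Fin l → ℤ) : bf A (refl A i u) (refl A i v) = bf A u v := by
  have h1 : bf A (Pi.single i 1) (Pi.single i 1) = 2 := by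
    rw [bf_single, pairing_single, hA.diag, mul_one]
  rw [refl_eq, refl_eq]
  simp only [map_sub, map_smul, LinearMap.sub_apply, LinearMap.smul_apply, smul_eq_mul, h1,
    bf_symm hs u (Pi.single i 1)]
  ring

include hs in
theorem bf_rep (w : M.Group) (u v : Fin l → ℤ) :
    bf A (rep M.toCoxeterSystem hA w u) (rep M.toCoxeterSystem hA w v) = bf A u v := by
  induction w using M.toCoxeterSystem.simple_induction generalizing u v with
  | simple i => rw [rep_simple, bf_refl hA hs]
  | one => rw [map_one, Module.End.one_apply, Module.End.one_apply]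
  | mul w w' h1 h2 => rw [rep_mul_apply, rep_mul_apply, h1, h2]

theorem isR_simple (i : Fin l) :
    IsR (bf A) (rep M.toCoxeterSystem hA) (M.toCoxeterSystem.simple i) (Pi.single i 1) := by
  refine ⟨by rw [bf_single, pairing_single, hA.diag, mul_one], fun v => ?_⟩
  rw [rep_simple, refl_eq]

/-- the action of a word -/
def app (A : Fin l → Fin l → ℤ) (L : List (Fin l)) (v : Fin l → ℤ) : Fin l → ℤ := L.foldr (fun i u => refl A i u) v

theorem rep_word (L : List (Fin l)) (v : Fin l → ℤ) :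
    rep M.toCoxeterSystem hA (M.toCoxeterSystem.wordProd L) v = app A L v := by
  induction L with
  | nil => rw [CoxeterSystem.wordProd_nil, map_one, Module.End.one_apply]; rfl
  | cons i L ih => rw [CoxeterSystem.wordProd_cons, rep_mul_apply, ih, rep_simple]; rfl

/-- the reflection of the root `L e_j` -/
def tt (M : CoxeterMatrix (Fin l)) (d : List (Fin l) × Fin l) : M.Group :=
  M.toCoxeterSystem.wordProd d.1 * M.toCoxeterSystem.simple d.2 * (M.toCoxeterSystem.wordProd d.1)⁻¹

include hs in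
theorem isR_tt (d : List (Fin l) × Fin l) :
    IsR (bf A) (rep M.toCoxeterSystem hA) (tt M d) (app A d.1 (Pi.single d.2 1)) := by
  have h1 := isR_conj (B := bf A) (ρ := rep M.toCoxeterSystem hA) (bf_rep hA hs) (isR_simple hA d.2)
    (M.toCoxeterSystem.wordProd d.1)
  rwa [rep_word] at h1

end Cartan

end Cfsg.Agent.H566.WeylTwo
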