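import Cfsg.Agent.H566.WeylTwo

/-!
# `{2, s}`-subgroups of odd index of `W(E6)`, `W(E7)`, `W(E8)`, the data (helper566)
-/

set_option autoImplicit false
set_option maxRecDepth 100000

namespace Cfsg.Agent.H566.WeylTwo

open Subgroup Cfsg Cfsg.Agent.ChevalleyStructure.CoxeterGeom

/-- the Cartan matrix of type `E6` -/
def A6 : Fin 6 → Fin 6 → ℤ :=
  ![![2, 0, -1, 0, 0, 0],
    ![0, 2, 0, -1, 0, 0],
    ![-1, 0, 2, -1, 0, 0],
    ![0, -1, -1, 2, -1, 0],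
    ![0, 0, 0, -1, 2, -1],
    ![0, 0, 0, 0, -1, 2]]

/-- orthogonal roots -/
def b6 : Fin 4 → Fin 6 → ℤ :=
  ![![1, 2, 2, 3, 2, 1],
    ![1, 0, 1, 1, 1, 1],
    ![0, 0, 1, 1, 1, 0],
    ![0, 0, 0, 1, 0, 0]]

/-- words for them -/
def d6 : Fin 4 → List (Fin 6) × Fin 6 :=
  ![([1, 3, 4, 5, 2, 3, 4, 1, 3, 2], 0),
    ([5, 4, 3, 2], 0),
    ([4, 3], 2),
    ([], 3)]

set_option backward.isDefEq.respectTransparency false in
theorem cartan6 : IsCartan CoxeterMatrix.E₆ A6 := by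
  constructor <;> decide +kernel

theorem symm6 : ∀ i j, A6 i j = A6 j i := by decide +kernel

theorem form6 (v : Fin 6 → ℤ) : 60 * bf A6 v v = 30 * ((2 * v 0 - v 2) * (2 * v 0 - v 2)) + 10 * ((3 * v 2 - 2 * v 3) * (3 * v 2 - 2 * v 3)) + 30 * ((2 * v 1 - v 3) * (2 * v 1 - v 3)) + 2 * ((5 * v 3 - 6 * v 4) * (5 * v 3 - 6 * v 4)) + 3 * ((4 * v 4 - 5 * v 5) * (4 * v 4 - 5 * v 5)) + 45 * ((v 5) * (v 5)) := by
  rw [bf_apply]
  simp only [Fin.sum_univ_succ, Fin.sum_univ_zero, A6]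
  simp
  ring

theorem pos6 (v : Fin 6 → ℤ) (h : bf A6 v v ≤ 0) : v = 0 := by
  have h1 := form6 v
  have p0 := mul_self_nonneg (2 * v 0 - v 2)
  have p1 := mul_self_nonneg (3 * v 2 - 2 * v 3)
  have p2 := mul_self_nonneg (2 * v 1 - v 3)
  have p3 := mul_self_nonneg (5 * v 3 - 6 * v 4)
  have p4 := mul_self_nonneg (4 * v 4 - 5 * v 5)
  have p5 := mul_self_nonneg (v 5)
  have q0 : 2 * v 0 - v 2 = 0 := mul_self_eq_zero.1 (le_antisymm (by omega) p0)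
  have q1 : 3 * v 2 - 2 * v 3 = 0 := mul_self_eq_zero.1 (le_antisymm (by omega) p1)
  have q2 : 2 * v 1 - v 3 = 0 := mul_self_eq_zero.1 (le_antisymm (by omega) p2)
  have q3 : 5 * v 3 - 6 * v 4 = 0 := mul_self_eq_zero.1 (le_antisymm (by omega) p3)
  have q4 : 4 * v 4 - 5 * v 5 = 0 := mul_self_eq_zero.1 (le_antisymm (by omega) p4)
  have q5 : v 5 = 0 := mul_self_eq_zero.1 (le_antisymm (by omega) p5)
  funext i
  fin_cases i <;> simp only [Pi.zero_apply] <;> simp <;> omega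

theorem even6 (v : Fin 6 → ℤ) : 2 ∣ bf A6 v v := by
  refine ⟨v 0 * v 0 + v 1 * v 1 + v 2 * v 2 + v 3 * v 3 + v 4 * v 4 + v 5 * v 5 - v 0 * v 2 - v 1 * v 3 - v 2 * v 3 - v 3 * v 4 - v 4 * v 5, ?_⟩
  rw [bf_apply]
  simp only [Fin.sum_univ_succ, Fin.sum_univ_zero, A6]
  simp
  ring

theorem app6 : ∀ i, app A6 (d6 i).1 (Pi.single (d6 i).2 1) = b6 i := by decide +kernel

theorem orth6 (i j : Fin 4) (h : i ≠ j) : bf A6 (b6 i) (b6 j) = 0 := by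
  rw [bf_apply]
  revert i j
  decide +kernel

theorem lin6_0 (v : Fin 6 → ℤ) : bf A6 v (b6 0) = 1 * v 1 := by
  rw [bf_apply]
  simp only [Fin.sum_univ_succ, Fin.sum_univ_zero, A6, b6]
  simp
  try ring

theorem lin6_1 (v : Fin 6 → ℤ) : bf A6 v (b6 1) = 1 * v 0 - 1 * v 1 + 1 * v 5 := by
  rw [bf_apply]
  simp only [Fin.sum_univ_succ, Fin.sum_univ_zero, A6, b6]
  simp
  try ring

theorem lin6_2 (v : Fin 6 → ℤ) : bf A6 v (b6 2) = -1 * v 0 - 1 * v 1 + 1 * v 2 + 1 * v 4 - 1 * v 5 := by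
  rw [bf_apply]
  simp only [Fin.sum_univ_succ, Fin.sum_univ_zero, A6, b6]
  simp
  try ring

theorem lin6_3 (v : Fin 6 → ℤ) : bf A6 v (b6 3) = -1 * v 1 - 1 * v 2 + 2 * v 3 - 1 * v 4 := by
  rw [bf_apply]
  simp only [Fin.sum_univ_succ, Fin.sum_univ_zero, A6, b6]
  simp
  try ring

theorem perp6 (v : Fin 6 → ℤ) (h : ∀ i, bf A6 v (b6 i) = 0) : v 1 = 0 ∧ v 5 = - v 0 ∧ v 4 = - v 2 ∧ v 3 = 0 := by
  have h0 := h 0
  rw [lin6_0] at h0
  have h1 := h 1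
  rw [lin6_1] at h1
  have h2 := h 2
  rw [lin6_2] at h2
  have h3 := h 3
  rw [lin6_3] at h3
  omega

theorem noroot6 (v : Fin 6 → ℤ) (h1 : bf A6 v v = 2) (h : ∀ i, bf A6 v (b6 i) = 0) : False := by
  obtain ⟨e1, e2, e3, e4⟩ := perp6 v h
  have h2 : bf A6 v v = 4 * (v 0 * v 0 - v 0 * v 2 + v 2 * v 2) := by
    rw [bf_apply]
    simp only [Fin.sum_univ_succ, Fin.sum_univ_zero, A6]
    simp
    rw [e1, e2, e3, e4]
    ring
  omega

theorem mod6 (w : Fin 6 → ℤ) (h : ∀ i, bf A6 w (b6 i) = 0) : ∃ (c : Fin 4 → ℤ) (q : Fin 6 → ℤ),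
    w = ∑ i, c i • b6 i + (2 : ℤ) • q := by
  obtain ⟨e1, e2, e3, e4⟩ := perp6 w h
  refine ⟨![0, w 0, w 2 - w 0, - w 2], ![0, 0, 0, 0, - w 2, - w 0], ?_⟩
  funext i
  rw [Pi.add_apply, Finset.sum_apply]
  simp only [Fin.sum_univ_succ, Fin.sum_univ_zero, b6]
  fin_cases i <;> simp <;> omega

theorem dt6 : Dt (bf A6) (rep CoxeterMatrix.E₆.toCoxeterSystem cartan6) (fun i => tt CoxeterMatrix.E₆ (d6 i)) b6 where
  inj := rep_injective _ _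
  symm := bf_symm symm6
  pos := pos6
  even := even6
  inv := bf_rep cartan6 symm6
  orth := orth6
  act := fun i => by
    have h := isR_tt cartan6 symm6 (d6 i)
    rwa [app6] at h
  noroot := noroot6

/-- the Cartan matrix of type `E7` -/
def A7 : Fin 7 → Fin 7 → ℤ :=
  ![![2, 0, -1, 0, 0, 0, 0],
    ![0, 2, 0, -1, 0, 0, 0],
    ![-1, 0, 2, -1, 0, 0, 0],
    ![0, -1, -1, 2, -1, 0, 0],
    ![0, 0, 0, -1, 2, -1, 0],
    ![0, 0, 0, 0, -1, 2, -1],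
    ![0, 0, 0, 0, 0, -1, 2]]

/-- orthogonal roots -/
def b7 : Fin 7 → Fin 7 → ℤ :=
  ![![2, 2, 3, 4, 3, 2, 1],
    ![0, 1, 1, 2, 2, 2, 1],
    ![0, 1, 1, 2, 1, 0, 0],
    ![0, 1, 0, 0, 0, 0, 0],
    ![0, 0, 1, 0, 0, 0, 0],
    ![0, 0, 0, 0, 1, 0, 0],
    ![0, 0, 0, 0, 0, 0, 1]]

/-- words for them -/
def d7 : Fin 7 → List (Fin 7) × Fin 7 :=
  ![([0, 2, 3, 4, 5, 6, 1, 3, 4, 5, 2, 3, 4, 1, 3, 2], 0),
    ([5, 6, 4, 5, 3, 4, 2, 3], 1),
    ([3, 4, 2, 3], 1),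
    ([], 1),
    ([], 2),
    ([], 4),
    ([], 6)]

set_option backward.isDefEq.respectTransparency false in
theorem cartan7 : IsCartan CoxeterMatrix.E₇ A7 := by
  constructor <;> decide +kernel

theorem symm7 : ∀ i j, A7 i j = A7 j i := by decide +kernel

theorem form7 (v : Fin 7 → ℤ) : 60 * bf A7 v v = 30 * ((2 * v 0 - v 2) * (2 * v 0 - v 2)) + 10 * ((3 * v 2 - 2 * v 3) * (3 * v 2 - 2 * v 3)) + 30 * ((2 * v 1 - v 3) * (2 * v 1 - v 3)) + 2 * ((5 * v 3 - 6 * v 4) * (5 * v 3 - 6 * v 4)) + 3 * ((4 * v 4 - 5 * v 5) * (4 * v 4 - 5 * v 5)) + 5 * ((3 * v 5 - 4 * v 6) * (3 * v 5 - 4 * v 6)) + 40 * ((v 6) * (v 6)) := by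
  rw [bf_apply]
  simp only [Fin.sum_univ_succ, Fin.sum_univ_zero, A7]
  simp
  ring

theorem pos7 (v : Fin 7 → ℤ) (h : bf A7 v v ≤ 0) : v = 0 := by
  have h1 := form7 v
  have p0 := mul_self_nonneg (2 * v 0 - v 2)
  have p1 := mul_self_nonneg (3 * v 2 - 2 * v 3)
  have p2 := mul_self_nonneg (2 * v 1 - v 3)
  have p3 := mul_self_nonneg (5 * v 3 - 6 * v 4)
  have p4 := mul_self_nonneg (4 * v 4 - 5 * v 5)
  have p5 := mul_self_nonneg (3 * v 5 - 4 * v 6)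
  have p6 := mul_self_nonneg (v 6)
  have q0 : 2 * v 0 - v 2 = 0 := mul_self_eq_zero.1 (le_antisymm (by omega) p0)
  have q1 : 3 * v 2 - 2 * v 3 = 0 := mul_self_eq_zero.1 (le_antisymm (by omega) p1)
  have q2 : 2 * v 1 - v 3 = 0 := mul_self_eq_zero.1 (le_antisymm (by omega) p2)
  have q3 : 5 * v 3 - 6 * v 4 = 0 := mul_self_eq_zero.1 (le_antisymm (by omega) p3)
  have q4 : 4 * v 4 - 5 * v 5 = 0 := mul_self_eq_zero.1 (le_antisymm (by omega) p4)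
  have q5 : 3 * v 5 - 4 * v 6 = 0 := mul_self_eq_zero.1 (le_antisymm (by omega) p5)
  have q6 : v 6 = 0 := mul_self_eq_zero.1 (le_antisymm (by omega) p6)
  funext i
  fin_cases i <;> simp only [Pi.zero_apply] <;> simp <;> omega

theorem even7 (v : Fin 7 → ℤ) : 2 ∣ bf A7 v v := by
  refine ⟨v 0 * v 0 + v 1 * v 1 + v 2 * v 2 + v 3 * v 3 + v 4 * v 4 + v 5 * v 5 + v 6 * v 6 - v 0 * v 2 - v 1 * v 3 - v 2 * v 3 - v 3 * v 4 - v 4 * v 5 - v 5 * v 6, ?_⟩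
  rw [bf_apply]
  simp only [Fin.sum_univ_succ, Fin.sum_univ_zero, A7]
  simp
  ring

theorem app7 : ∀ i, app A7 (d7 i).1 (Pi.single (d7 i).2 1) = b7 i := by decide +kernel

theorem orth7 (i j : Fin 7) (h : i ≠ j) : bf A7 (b7 i) (b7 j) = 0 := by
  rw [bf_apply]
  revert i j
  decide +kernel

theorem lin7_0 (v : Fin 7 → ℤ) : bf A7 v (b7 0) = 1 * v 0 := by
  rw [bf_apply]
  simp only [Fin.sum_univ_succ, Fin.sum_univ_zero, A7, b7]
  simp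
  try ring

theorem lin7_1 (v : Fin 7 → ℤ) : bf A7 v (b7 1) = -1 * v 0 + 1 * v 5 := by
  rw [bf_apply]
  simp only [Fin.sum_univ_succ, Fin.sum_univ_zero, A7, b7]
  simp
  try ring

theorem lin7_2 (v : Fin 7 → ℤ) : bf A7 v (b7 2) = -1 * v 0 + 1 * v 3 - 1 * v 5 := by
  rw [bf_apply]
  simp only [Fin.sum_univ_succ, Fin.sum_univ_zero, A7, b7]
  simp
  try ring

theorem lin7_3 (v : Fin 7 → ℤ) : bf A7 v (b7 3) = 2 * v 1 - 1 * v 3 := by
  rw [bf_apply]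
  simp only [Fin.sum_univ_succ, Fin.sum_univ_zero, A7, b7]
  simp
  try ring

theorem lin7_4 (v : Fin 7 → ℤ) : bf A7 v (b7 4) = -1 * v 0 + 2 * v 2 - 1 * v 3 := by
  rw [bf_apply]
  simp only [Fin.sum_univ_succ, Fin.sum_univ_zero, A7, b7]
  simp
  try ring

theorem lin7_5 (v : Fin 7 → ℤ) : bf A7 v (b7 5) = -1 * v 3 + 2 * v 4 - 1 * v 5 := by
  rw [bf_apply]
  simp only [Fin.sum_univ_succ, Fin.sum_univ_zero, A7, b7]
  simp
  try ring

theorem lin7_6 (v : Fin 7 → ℤ) : bf A7 v (b7 6) = -1 * v 5 + 2 * v 6 := by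
  rw [bf_apply]
  simp only [Fin.sum_univ_succ, Fin.sum_univ_zero, A7, b7]
  simp
  try ring

theorem span7 (v : Fin 7 → ℤ) (h : ∀ i, bf A7 v (b7 i) = 0) : v = 0 := by
  have h0 := h 0
  rw [lin7_0] at h0
  have h1 := h 1
  rw [lin7_1] at h1
  have h2 := h 2
  rw [lin7_2] at h2
  have h3 := h 3
  rw [lin7_3] at h3
  have h4 := h 4
  rw [lin7_4] at h4
  have h5 := h 5
  rw [lin7_5] at h5
  have h6 := h 6
  rw [lin7_6] at h6
  funext i
  fin_cases i <;> simp only [Pi.zero_apply] <;> simp <;> omega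

theorem dt7 : Dt (bf A7) (rep CoxeterMatrix.E₇.toCoxeterSystem cartan7) (fun i => tt CoxeterMatrix.E₇ (d7 i)) b7 where
  inj := rep_injective _ _
  symm := bf_symm symm7
  pos := pos7
  even := even7
  inv := bf_rep cartan7 symm7
  orth := orth7
  act := fun i => by
    have h := isR_tt cartan7 symm7 (d7 i)
    rwa [app7] at h
  noroot := fun α h1 h2 => by
    rw [span7 α h2, map_zero] at h1
    norm_num at h1

theorem word7 : cnt (par (bf A7) b7 ![0, 1, 1, 1, 1, 0, 0]) = 4 := by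
  have h : par (bf A7) b7 ![0, 1, 1, 1, 1, 0, 0] = fun i => decide ((∑ i', ∑ j, (![0, 1, 1, 1, 1, 0, 0] : Fin 7 → ℤ) i' * A7 i' j * b7 i j) % 2 = 1) := by
    funext i
    unfold par
    rw [bf_apply]
  rw [h]
  decide +kernel

/-- the Cartan matrix of type `E8` -/
def A8 : Fin 8 → Fin 8 → ℤ :=
  ![![2, 0, -1, 0, 0, 0, 0, 0],
    ![0, 2, 0, -1, 0, 0, 0, 0],
    ![-1, 0, 2, -1, 0, 0, 0, 0],
    ![0, -1, -1, 2, -1, 0, 0, 0],
    ![0, 0, 0, -1, 2, -1, 0, 0],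
    ![0, 0, 0, 0, -1, 2, -1, 0],
    ![0, 0, 0, 0, 0, -1, 2, -1],
    ![0, 0, 0, 0, 0, 0, -1, 2]]

/-- orthogonal roots -/
def b8 : Fin 8 → Fin 8 → ℤ :=
  ![![2, 3, 4, 6, 5, 4, 3, 2],
    ![2, 2, 3, 4, 3, 2, 1, 0],
    ![0, 1, 1, 2, 2, 2, 1, 0],
    ![0, 1, 1, 2, 1, 0, 0, 0],
    ![0, 1, 0, 0, 0, 0, 0, 0],
    ![0, 0, 1, 0, 0, 0, 0, 0],
    ![0, 0, 0, 0, 1, 0, 0, 0],
    ![0, 0, 0, 0, 0, 0, 1, 0]]

/-- words for them -/
def d8 : Fin 8 → List (Fin 8) × Fin 8 :=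
  ![([7, 6, 5, 4, 3, 2, 1, 3, 4, 5, 6, 7, 0, 2, 3, 4, 5, 6, 1, 3, 4, 5, 2, 3, 4, 1, 3, 2], 0),
    ([0, 2, 3, 4, 5, 6, 1, 3, 4, 5, 2, 3, 4, 1, 3, 2], 0),
    ([5, 6, 4, 5, 3, 4, 2, 3], 1),
    ([3, 4, 2, 3], 1),
    ([], 1),
    ([], 2),
    ([], 4),
    ([], 6)]

set_option backward.isDefEq.respectTransparency false in
theorem cartan8 : IsCartan CoxeterMatrix.E₈ A8 := by
  constructor <;> decide +kernel

theorem symm8 : ∀ i j, A8 i j = A8 j i := by decide +kernel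

theorem form8 (v : Fin 8 → ℤ) : 60 * bf A8 v v = 30 * ((2 * v 0 - v 2) * (2 * v 0 - v 2)) + 10 * ((3 * v 2 - 2 * v 3) * (3 * v 2 - 2 * v 3)) + 30 * ((2 * v 1 - v 3) * (2 * v 1 - v 3)) + 2 * ((5 * v 3 - 6 * v 4) * (5 * v 3 - 6 * v 4)) + 3 * ((4 * v 4 - 5 * v 5) * (4 * v 4 - 5 * v 5)) + 5 * ((3 * v 5 - 4 * v 6) * (3 * v 5 - 4 * v 6)) + 10 * ((2 * v 6 - 3 * v 7) * (2 * v 6 - 3 * v 7)) + 30 * ((v 7) * (v 7)) := by
  rw [bf_apply]
  simp only [Fin.sum_univ_succ, Fin.sum_univ_zero, A8]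
  simp
  ring

theorem pos8 (v : Fin 8 → ℤ) (h : bf A8 v v ≤ 0) : v = 0 := by
  have h1 := form8 v
  have p0 := mul_self_nonneg (2 * v 0 - v 2)
  have p1 := mul_self_nonneg (3 * v 2 - 2 * v 3)
  have p2 := mul_self_nonneg (2 * v 1 - v 3)
  have p3 := mul_self_nonneg (5 * v 3 - 6 * v 4)
  have p4 := mul_self_nonneg (4 * v 4 - 5 * v 5)
  have p5 := mul_self_nonneg (3 * v 5 - 4 * v 6)
  have p6 := mul_self_nonneg (2 * v 6 - 3 * v 7)
  have p7 := mul_self_nonneg (v 7)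
  have q0 : 2 * v 0 - v 2 = 0 := mul_self_eq_zero.1 (le_antisymm (by omega) p0)
  have q1 : 3 * v 2 - 2 * v 3 = 0 := mul_self_eq_zero.1 (le_antisymm (by omega) p1)
  have q2 : 2 * v 1 - v 3 = 0 := mul_self_eq_zero.1 (le_antisymm (by omega) p2)
  have q3 : 5 * v 3 - 6 * v 4 = 0 := mul_self_eq_zero.1 (le_antisymm (by omega) p3)
  have q4 : 4 * v 4 - 5 * v 5 = 0 := mul_self_eq_zero.1 (le_antisymm (by omega) p4)
  have q5 : 3 * v 5 - 4 * v 6 = 0 := mul_self_eq_zero.1 (le_antisymm (by omega) p5)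
  have q6 : 2 * v 6 - 3 * v 7 = 0 := mul_self_eq_zero.1 (le_antisymm (by omega) p6)
  have q7 : v 7 = 0 := mul_self_eq_zero.1 (le_antisymm (by omega) p7)
  funext i
  fin_cases i <;> simp only [Pi.zero_apply] <;> simp <;> omega

theorem even8 (v : Fin 8 → ℤ) : 2 ∣ bf A8 v v := by
  refine ⟨v 0 * v 0 + v 1 * v 1 + v 2 * v 2 + v 3 * v 3 + v 4 * v 4 + v 5 * v 5 + v 6 * v 6 + v 7 * v 7 - v 0 * v 2 - v 1 * v 3 - v 2 * v 3 - v 3 * v 4 - v 4 * v 5 - v 5 * v 6 - v 6 * v 7, ?_⟩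
  rw [bf_apply]
  simp only [Fin.sum_univ_succ, Fin.sum_univ_zero, A8]
  simp
  ring

theorem app8 : ∀ i, app A8 (d8 i).1 (Pi.single (d8 i).2 1) = b8 i := by decide +kernel

theorem orth8 (i j : Fin 8) (h : i ≠ j) : bf A8 (b8 i) (b8 j) = 0 := by
  rw [bf_apply]
  revert i j
  decide +kernel

theorem lin8_0 (v : Fin 8 → ℤ) : bf A8 v (b8 0) = 1 * v 7 := by
  rw [bf_apply]
  simp only [Fin.sum_univ_succ, Fin.sum_univ_zero, A8, b8]
  simp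
  try ring

theorem lin8_1 (v : Fin 8 → ℤ) : bf A8 v (b8 1) = 1 * v 0 - 1 * v 7 := by
  rw [bf_apply]
  simp only [Fin.sum_univ_succ, Fin.sum_univ_zero, A8, b8]
  simp
  try ring

theorem lin8_2 (v : Fin 8 → ℤ) : bf A8 v (b8 2) = -1 * v 0 + 1 * v 5 - 1 * v 7 := by
  rw [bf_apply]
  simp only [Fin.sum_univ_succ, Fin.sum_univ_zero, A8, b8]
  simp
  try ring

theorem lin8_3 (v : Fin 8 → ℤ) : bf A8 v (b8 3) = -1 * v 0 + 1 * v 3 - 1 * v 5 := by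
  rw [bf_apply]
  simp only [Fin.sum_univ_succ, Fin.sum_univ_zero, A8, b8]
  simp
  try ring

theorem lin8_4 (v : Fin 8 → ℤ) : bf A8 v (b8 4) = 2 * v 1 - 1 * v 3 := by
  rw [bf_apply]
  simp only [Fin.sum_univ_succ, Fin.sum_univ_zero, A8, b8]
  simp
  try ring

theorem lin8_5 (v : Fin 8 → ℤ) : bf A8 v (b8 5) = -1 * v 0 + 2 * v 2 - 1 * v 3 := by
  rw [bf_apply]
  simp only [Fin.sum_univ_succ, Fin.sum_univ_zero, A8, b8]
  simp
  try ring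

theorem lin8_6 (v : Fin 8 → ℤ) : bf A8 v (b8 6) = -1 * v 3 + 2 * v 4 - 1 * v 5 := by
  rw [bf_apply]
  simp only [Fin.sum_univ_succ, Fin.sum_univ_zero, A8, b8]
  simp
  try ring

theorem lin8_7 (v : Fin 8 → ℤ) : bf A8 v (b8 7) = -1 * v 5 + 2 * v 6 - 1 * v 7 := by
  rw [bf_apply]
  simp only [Fin.sum_univ_succ, Fin.sum_univ_zero, A8, b8]
  simp
  try ring

theorem span8 (v : Fin 8 → ℤ) (h : ∀ i, bf A8 v (b8 i) = 0) : v = 0 := by
  have h0 := h 0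
  rw [lin8_0] at h0
  have h1 := h 1
  rw [lin8_1] at h1
  have h2 := h 2
  rw [lin8_2] at h2
  have h3 := h 3
  rw [lin8_3] at h3
  have h4 := h 4
  rw [lin8_4] at h4
  have h5 := h 5
  rw [lin8_5] at h5
  have h6 := h 6
  rw [lin8_6] at h6
  have h7 := h 7
  rw [lin8_7] at h7
  funext i
  fin_cases i <;> simp only [Pi.zero_apply] <;> simp <;> omega

theorem dt8 : Dt (bf A8) (rep CoxeterMatrix.E₈.toCoxeterSystem cartan8) (fun i => tt CoxeterMatrix.E₈ (d8 i)) b8 where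
  inj := rep_injective _ _
  symm := bf_symm symm8
  pos := pos8
  even := even8
  inv := bf_rep cartan8 symm8
  orth := orth8
  act := fun i => by
    have h := isR_tt cartan8 symm8 (d8 i)
    rwa [app8] at h
  noroot := fun α h1 h2 => by
    rw [span8 α h2, map_zero] at h1
    norm_num at h1

theorem word8 : cnt (par (bf A8) b8 ![0, 1, 1, 1, 1, 0, 0, 0]) = 4 := by
  have h : par (bf A8) b8 ![0, 1, 1, 1, 1, 0, 0, 0] = fun i => decide ((∑ i', ∑ j, (![0, 1, 1, 1, 1, 0, 0, 0] : Fin 8 → ℤ) i' * A8 i' j * b8 i j) % 2 = 1) := by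
    funext i
    unfold par
    rw [bf_apply]
  rw [h]
  decide +kernel

/-! ### the theorems -/

theorem weyl_two_E6 {s : ℕ} (hs : s.Prime) (h5 : 5 ≤ s) (P : Subgroup CoxeterMatrix.E₆.Group)
    (hP : ∀ q : ℕ, q.Prime → q ∣ Nat.card P → q = 2 ∨ q = s) (hodd : ¬ 2 ∣ P.index) : ¬ s ∣ Nat.card P := by
  have hc := WeylST.card_E6
  have hfin : Finite CoxeterMatrix.E₆.Group := Nat.finite_of_card_ne_zero (by rw [hc]; norm_num)
  intro h
  have h1 : s ∣ 51840 := by rw [← hc]; exact h.trans (card_subgroup_dvd_card P)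
  have h2 : s = 5 := by
    have h3 : s ∣ 2 ^ 7 * (3 ^ 4 * 5) := by norm_num; exact h1
    rcases hs.dvd_mul.1 h3 with h4 | h4
    · have := (Nat.prime_dvd_prime_iff_eq hs Nat.prime_two).1 (hs.dvd_of_dvd_pow h4)
      omega
    rcases hs.dvd_mul.1 h4 with h4 | h4
    · have := (Nat.prime_dvd_prime_iff_eq hs Nat.prime_three).1 (hs.dvd_of_dvd_pow h4)
      omega
    · exact (Nat.prime_dvd_prime_iff_eq hs (by norm_num)).1 h4
  subst h2
  exact dt6.of_core (N := 7) (fun P ht hP _ => dt6.core_four mod6 P ht hP) (by rw [hc]; norm_num) P hP hodd h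

theorem prime_five_seven {s : ℕ} (hs : s.Prime) (h5 : 5 ≤ s) (h : s ∣ 2 ^ 14 * (3 ^ 5 * (5 ^ 2 * 7))) :
    s = 5 ∨ s = 7 := by
  rcases hs.dvd_mul.1 h with h4 | h4
  · have := (Nat.prime_dvd_prime_iff_eq hs Nat.prime_two).1 (hs.dvd_of_dvd_pow h4)
    omega
  rcases hs.dvd_mul.1 h4 with h4 | h4
  · have := (Nat.prime_dvd_prime_iff_eq hs Nat.prime_three).1 (hs.dvd_of_dvd_pow h4)
    omega
  rcases hs.dvd_mul.1 h4 with h4 | h4
  · exact Or.inl ((Nat.prime_dvd_prime_iff_eq hs (by norm_num)).1 (hs.dvd_of_dvd_pow h4))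
  · exact Or.inr ((Nat.prime_dvd_prime_iff_eq hs (by norm_num)).1 h4)

theorem weyl_two_E7 {s : ℕ} (hs : s.Prime) (h5 : 5 ≤ s) (P : Subgroup CoxeterMatrix.E₇.Group)
    (hP : ∀ q : ℕ, q.Prime → q ∣ Nat.card P → q = 2 ∨ q = s) (hodd : ¬ 2 ∣ P.index) : ¬ s ∣ Nat.card P := by
  have hc := WeylST.card_E7
  have hfin : Finite CoxeterMatrix.E₇.Group := Nat.finite_of_card_ne_zero (by rw [hc]; norm_num)
  intro h
  have h1 : s ∣ 2903040 := by rw [← hc]; exact h.trans (card_subgroup_dvd_card P)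
  rcases prime_five_seven hs h5 (h1.trans (by norm_num)) with rfl | rfl
  · exact dt7.of_core (N := 10) (fun P ht hP _ => dt7.core_five span7 (fun σ => comb7) word7 P ht hP)
      (by rw [hc]; norm_num) P hP hodd h
  · exact dt7.of_core (N := 10) (fun P ht hP hN => dt7.core_seven span7 (Or.inl ⟨rfl, rfl⟩) P ht hP hN)
      (by rw [hc]; norm_num) P hP hodd h

theorem weyl_two_E8 {s : ℕ} (hs : s.Prime) (h5 : 5 ≤ s) (P : Subgroup CoxeterMatrix.E₈.Group)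
    (hP : ∀ q : ℕ, q.Prime → q ∣ Nat.card P → q = 2 ∨ q = s) (hodd : ¬ 2 ∣ P.index) : ¬ s ∣ Nat.card P := by
  have hc := WeylST.card_E8
  have hfin : Finite CoxeterMatrix.E₈.Group := Nat.finite_of_card_ne_zero (by rw [hc]; norm_num)
  intro h
  have h1 : s ∣ 696729600 := by rw [← hc]; exact h.trans (card_subgroup_dvd_card P)
  rcases prime_five_seven hs h5 (h1.trans (by norm_num)) with rfl | rfl
  · exact dt8.of_core (N := 14) (fun P ht hP _ => dt8.core_five span8 (fun σ => comb8) word8 P ht hP)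
      (by rw [hc]; norm_num) P hP hodd h
  · exact dt8.of_core (N := 14) (fun P ht hP hN => dt8.core_seven span8 (Or.inr ⟨rfl, rfl⟩) P ht hP hN)
      (by rw [hc]; norm_num) P hP hodd h

end Cfsg.Agent.H566.WeylTwo
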